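import Cfsg.Agent.LieM.HKK
import Cfsg.Agent.Gen2.HallPet
import Mathlib.Algebra.DirectSum.Basic

/-!
The Lie ring `LG G = ⨁ γ n / γ (n + 1)` of the lower central series of a group (helper2), with the maps
`ι n : G → LG G`; the action of an automorphism; and `pow_mem_lcs_succ`: if `α ^ p = 1` and the `N`-th power of
every `g` in `γ n` fixed by `α` modulo `γ (n + 1)` lies in `γ (n + 1)`, then `γ c / γ (c + 1)` is killed by
`N * p ^ (c + 1)`, where `c = xi p (2 ^ (p - 1) - 1)`.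
-/

namespace Cfsg.Agent.LieM

open Subgroup
open scoped commutatorElement DirectSum

variable {G : Type*} [Group G] {n i j : ℕ} {a b c : G}

/-- the lower central series, `γ G 0 = ⊤` -/
abbrev γ (G : Type*) [Group G] (n : ℕ) : Subgroup G := (⊤ : Subgroup G).lowerCentralSeries n

theorem γ_comm (ha : a ∈ γ G i) (hb : b ∈ γ G j) : ⁅a, b⁆ ∈ γ G (i + j + 1) :=
  Gen2.lcs_comm_le ⊤ j i (commutator_mem_commutator ha hb)

theorem γ_succ_le : γ G (n + 1) ≤ γ G n := Subgroup.lowerCentralSeries_antitone ⊤ (Nat.le_succ n)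

theorem γ_comm' (ha : a ∈ γ G n) (b : G) : ⁅a, b⁆ ∈ γ G (n + 1) := commutator_mem_commutator ha (mem_top b)

/-- the factor `γ n / γ (n + 1)` -/
def Gr (G : Type*) [Group G] (n : ℕ) : Type _ := Additive (γ G n ⧸ (γ G (n + 1)).subgroupOf (γ G n))

instance instAddCommGroupGr : AddCommGroup (Gr G n) :=
  { (inferInstance : AddGroup (Additive (γ G n ⧸ (γ G (n + 1)).subgroupOf (γ G n)))) with
    add_comm := by
      rintro ⟨a⟩ ⟨b⟩
      refine QuotientGroup.eq.2 (mem_subgroupOf.2 ?_)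
      have := γ_comm' (inv_mem b.2) (a : G)⁻¹
      rwa [show ⁅(b : G)⁻¹, (a : G)⁻¹⁆ = (((a * b)⁻¹ * (b * a) : γ G n) : G) by
        simp [commutatorElement_def, mul_assoc]] at this }

/-- the associated graded group -/
def LG (G : Type*) [Group G] : Type _ := ⨁ n, Gr G n

instance instAddCommGroupLG : AddCommGroup (LG G) := inferInstanceAs (AddCommGroup (⨁ n, Gr G n))

open Classical in
/-- the class of `a ∈ γ n` -/
noncomputable def ι (n : ℕ) (a : G) : LG G :=
  if h : a ∈ γ G n then DirectSum.of (Gr G) n (Additive.ofMul (QuotientGroup.mk ⟨a, h⟩)) else 0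

theorem ι_of (ha : a ∈ γ G n) :
    ι n a = DirectSum.of (Gr G) n (Additive.ofMul (QuotientGroup.mk ⟨a, ha⟩)) := dif_pos ha

theorem ι_mul (ha : a ∈ γ G n) (hb : b ∈ γ G n) : ι n (a * b) = ι n a + ι n b := by
  rw [ι_of ha, ι_of hb, ι_of (mul_mem ha hb)]
  exact (DirectSum.of (Gr G) n).map_add (Additive.ofMul (QuotientGroup.mk ⟨a, ha⟩))
    (Additive.ofMul (QuotientGroup.mk ⟨b, hb⟩))

theorem ι_eq_zero (ha : a ∈ γ G n) : ι n a = 0 ↔ a ∈ γ G (n + 1) := by
  rw [ι_of ha]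
  exact (map_eq_zero_iff _ (DirectSum.of_injective n)).trans
    ((QuotientGroup.eq_one_iff (⟨a, ha⟩ : γ G n)).trans mem_subgroupOf)

theorem ι_one : ι n (1 : G) = 0 := (ι_eq_zero (one_mem _)).2 (one_mem _)

theorem ι_inv (ha : a ∈ γ G n) : ι n a⁻¹ = -ι n a :=
  eq_neg_of_add_eq_zero_left (by rw [← ι_mul (inv_mem ha) ha, inv_mul_cancel, ι_one])

theorem ι_pow (ha : a ∈ γ G n) (k : ℕ) : ι n (a ^ k) = k • ι n a := by
  induction k with
  | zero => simp [ι_one]
  | succ k ih => rw [pow_succ, ι_mul (pow_mem ha k) ha, ih, succ_nsmul]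

theorem ι_conj (ha : a ∈ γ G n) (b : G) : ι n (b * a * b⁻¹) = ι n a := by
  have h := inv_mem (γ_comm' ha b)
  rw [show b * a * b⁻¹ = ⁅a, b⁆⁻¹ * a by group, ι_mul (γ_succ_le h) ha, (ι_eq_zero (γ_succ_le h)).2 h, zero_add]

theorem LG.ind {P : LG G → Prop} (h0 : P 0) (h1 : ∀ n a, a ∈ γ G n → P (ι n a))
    (h2 : ∀ x y, P x → P y → P (x + y)) (x : LG G) : P x := by
  refine DirectSum.induction_on (motive := P) x h0 ?_ h2
  rintro n ⟨a⟩
  have := h1 n a a.2
  rwa [ι_of a.2] at this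

theorem LG.ext {B : Type*} [AddCommGroup B] {f g : LG G →+ B} (h : ∀ n a, a ∈ γ G n → f (ι n a) = g (ι n a)) :
    f = g :=
  AddMonoidHom.ext (LG.ind (by simp) h fun x y hx hy => by rw [map_add, map_add, hx, hy])

theorem exists_lift {B : Type*} [AddCommGroup B] (f : ℕ → G → B)
    (h1 : ∀ n a b, a ∈ γ G n → b ∈ γ G n → f n (a * b) = f n a + f n b) (h2 : ∀ n a, a ∈ γ G (n + 1) → f n a = 0) :
    ∃ F : LG G →+ B, ∀ n a, a ∈ γ G n → F (ι n a) = f n a := by
  let g : ∀ n, γ G n →* Multiplicative B := fun n =>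
    MonoidHom.mk' (fun a => Multiplicative.ofAdd (f n a)) fun a b => congrArg Multiplicative.ofAdd (h1 n a b a.2 b.2)
  let k : ∀ n, Gr G n →+ B := fun n => MonoidHom.toAdditiveLeft (QuotientGroup.lift _ (g n) fun a ha =>
    congrArg Multiplicative.ofAdd (h2 n a (mem_subgroupOf.1 ha)))
  refine ⟨DirectSum.toAddMonoid k, fun n a ha => ?_⟩
  rw [ι_of ha]
  exact DirectSum.toAddMonoid_of k n _

theorem exists_ad (ha : a ∈ γ G i) : ∃ F : LG G →+ LG G, ∀ j b, b ∈ γ G j → F (ι j b) = ι (i + j + 1) ⁅a, b⁆ :=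
  exists_lift _ (fun j b c hb hc => by
    rw [show ⁅a, b * c⁆ = ⁅a, b⁆ * (b * ⁅a, c⁆ * b⁻¹) by group,
      ι_mul (γ_comm ha hb) (Normal.conj_mem inferInstance _ (γ_comm ha hc) _), ι_conj (γ_comm ha hc)])
    fun j b hb => (ι_eq_zero (γ_comm ha (γ_succ_le hb))).2 (γ_comm (j := j + 1) ha hb)

theorem exists_bracket (G : Type*) [Group G] : ∃ F : LG G →+ LG G →+ LG G, ∀ i a j b, a ∈ γ G i → b ∈ γ G j →
    F (ι i a) (ι j b) = ι (i + j + 1) ⁅a, b⁆ := by
  classical
  have sp : ∀ {i a} (ha : a ∈ γ G i) j b, b ∈ γ G j → (if h : a ∈ γ G i then (exists_ad h).choose else 0) (ι j b) =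
      ι (i + j + 1) ⁅a, b⁆ := fun ha j b hb => by rw [dif_pos ha]; exact (exists_ad ha).choose_spec j b hb
  obtain ⟨F, hF⟩ := exists_lift (G := G) (fun i a => if h : a ∈ γ G i then (exists_ad h).choose else 0)
    (fun i a c ha hc => LG.ext fun j b hb => by
      rw [AddMonoidHom.add_apply, sp ha j b hb, sp hc j b hb, sp (mul_mem ha hc) j b hb,
        show ⁅a * c, b⁆ = (a * ⁅c, b⁆ * a⁻¹) * ⁅a, b⁆ by group,
        ι_mul (Normal.conj_mem inferInstance _ (γ_comm hc hb) _) (γ_comm ha hb), ι_conj (γ_comm hc hb), add_comm])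
    fun i a ha => LG.ext fun j b hb => by
      rw [sp (γ_succ_le ha) j b hb]
      refine (ι_eq_zero (γ_comm (γ_succ_le ha) hb)).2 ?_
      rw [show i + j + 1 + 1 = i + 1 + j + 1 by ring]
      exact γ_comm ha hb
  exact ⟨F, fun i a j b ha hb => by rw [hF i a ha, sp ha j b hb]⟩

/-- the bracket -/
noncomputable def bk (G : Type*) [Group G] : LG G →+ LG G →+ LG G := (exists_bracket G).choose

theorem bk_ι (ha : a ∈ γ G i) (hb : b ∈ γ G j) : bk G (ι i a) (ι j b) = ι (i + j + 1) ⁅a, b⁆ :=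
  (exists_bracket G).choose_spec i a j b ha hb

theorem bk_skew (x y : LG G) : bk G x y = -bk G y x := by
  refine LG.ind (P := fun x => bk G x y = -bk G y x) (by simp) (fun i a ha => ?_)
    (fun u v hu hv => by simp only [map_add, AddMonoidHom.add_apply, hu, hv]; abel) x
  refine LG.ind (P := fun y => bk G (ι i a) y = -bk G y (ι i a)) (by simp) (fun j b hb => ?_)
    (fun u v hu hv => by simp only [map_add, AddMonoidHom.add_apply, hu, hv]; abel) y
  rw [bk_ι ha hb, bk_ι hb ha, ← ι_inv (γ_comm hb ha), commutatorElement_inv, add_comm i]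

theorem bk_jacobi (x y z : LG G) : bk G z (bk G x y) = -bk G y (bk G z x) - bk G x (bk G y z) := by
  refine LG.ind (P := fun x => bk G z (bk G x y) = -bk G y (bk G z x) - bk G x (bk G y z)) (by simp) (fun i a ha => ?_)
    (fun u v hu hv => by simp only [map_add, AddMonoidHom.add_apply, hu, hv]; abel) x
  refine LG.ind (P := fun y => bk G z (bk G (ι i a) y) = -bk G y (bk G z (ι i a)) - bk G (ι i a) (bk G y z))
    (by simp) (fun j b hb => ?_) (fun u v hu hv => by simp only [map_add, AddMonoidHom.add_apply, hu, hv]; abel) y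
  refine LG.ind (P := fun z => bk G z (bk G (ι i a) (ι j b)) = -bk G (ι j b) (bk G z (ι i a)) -
    bk G (ι i a) (bk G (ι j b) z)) (by simp) (fun k c hc => ?_)
    (fun u v hu hv => by simp only [map_add, AddMonoidHom.add_apply, hu, hv]; abel) z
  have h1 := γ_comm hb (γ_comm (inv_mem hc) (inv_mem ha))
  have h2 := γ_comm (inv_mem ha) (γ_comm (inv_mem hb) hc)
  have e1 := (bk_ι hb (γ_comm (inv_mem hc) (inv_mem ha))).symm
  have e2 := (bk_ι (inv_mem ha) (γ_comm (inv_mem hb) hc)).symm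
  rw [← bk_ι (inv_mem hc) (inv_mem ha), ι_inv hc, ι_inv ha] at e1
  rw [← bk_ι (inv_mem hb) hc, ι_inv hb, ι_inv ha] at e2
  rw [show j + (k + i + 1) + 1 = k + (i + j + 1) + 1 by ring] at h1 e1
  rw [show i + (j + k + 1) + 1 = k + (i + j + 1) + 1 by ring] at h2 e2
  rw [bk_ι ha hb, bk_ι hc (γ_comm ha hb), show ⁅c, ⁅a, b⁆⁆ = (a * c * ⁅b, ⁅c⁻¹, a⁻¹⁆⁆⁻¹ * (a * c)⁻¹) *
    (a * b * ⁅a⁻¹, ⁅b⁻¹, c⁆⁆⁻¹ * (a * b)⁻¹) by simp [commutatorElement_def, mul_assoc],
    ι_mul (Normal.conj_mem inferInstance _ (inv_mem h1) _) (Normal.conj_mem inferInstance _ (inv_mem h2) _),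
    ι_conj (inv_mem h1), ι_conj (inv_mem h2), ι_inv h1, ι_inv h2, e1, e2]
  simp [sub_eq_add_neg]

noncomputable instance instLieRingLG : LieRing (LG G) where
  bracket x y := bk G x y
  add_lie x y z := by simp
  lie_add x y z := by simp
  lie_self := LG.ind (by simp) (fun n a ha => by rw [bk_ι ha ha, commutatorElement_self, ι_one]) fun x y hx hy => by
    simp only [map_add, AddMonoidHom.add_apply, hx, hy, bk_skew x y]; abel
  leibniz_lie x y z := by
    show bk G x (bk G y z) = bk G (bk G x y) z + bk G y (bk G x z)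
    rw [bk_jacobi y z x, bk_skew (bk G x y), bk_skew z x, map_neg]; abel

theorem ι_lie (ha : a ∈ γ G i) (hb : b ∈ γ G j) : ⁅ι i a, ι j b⁆ = ι (i + j + 1) ⁅a, b⁆ := bk_ι ha hb

theorem ι_mem_lc (n : ℕ) : ∀ a ∈ γ G n, ι n a ∈ lc (LG G) n := by
  induction n with
  | zero => exact fun _ _ => trivial
  | succ n ih =>
    intro a ha
    induction ha using closure_induction with
    | mem x hx =>
      obtain ⟨a, ha, b, hb, rfl⟩ := hx
      rw [show n + 1 = n + 0 + 1 from rfl, ← ι_lie ha (j := 0) hb]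
      exact lie_mem_lc (ih a ha) _
    | one => rw [ι_one]; exact zero_mem _
    | mul x y hx hy ix iy => rw [ι_mul hx hy]; exact add_mem ix iy
    | inv x hx ix => rw [ι_inv hx]; exact neg_mem ix

theorem map_mem_γ (α : G →* G) (ha : a ∈ γ G n) : α a ∈ γ G n :=
  lowerCentralSeries_mono n le_top ((map_lowerCentralSeries ⊤ α n).le (mem_map_of_mem α ha))

theorem pow_mem_lcs_succ {p : ℕ} [Fact p.Prime] (α : MulAut G) (hα : α ^ p = 1) (N : ℕ)
    (hN : ∀ n a, a ∈ γ G n → a⁻¹ * α a ∈ γ G (n + 1) → a ^ N ∈ γ G (n + 1))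
    (ha : a ∈ γ G (xi p (2 ^ (p - 1) - 1))) :
    a ^ (N * p ^ (xi p (2 ^ (p - 1) - 1) + 1)) ∈ γ G (xi p (2 ^ (p - 1) - 1) + 1) := by
  have hm : ∀ {n a}, a ∈ γ G n → α a ∈ γ G n := fun h => map_mem_γ α.toMonoidHom h
  obtain ⟨φ, hφ⟩ := exists_lift (fun n a => ι n (α a)) (fun n a b ha hb => by rw [map_mul, ι_mul (hm ha) (hm hb)])
    fun n a ha => (ι_eq_zero (hm (γ_succ_le ha))).2 (hm ha)
  have hit : ∀ k x y, φ^[k] (x + y) = φ^[k] x + φ^[k] y := fun k => iterate_map_add φ k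
  have hι : ∀ k n a, a ∈ γ G n → φ^[k] (ι n a) = ι n ((α ^ k) a) := fun k n a ha => by
    induction k with
    | zero => rfl
    | succ k ih =>
      rw [Function.iterate_succ_apply', ih, hφ _ ((α ^ k) a) (map_mem_γ (α ^ k).toMonoidHom ha), pow_succ']; rfl
  have hp : ∀ x, φ^[p] x = x := LG.ind (iterate_map_zero φ p) (fun n a ha => by rw [hι _ _ _ ha, hα]; rfl)
    fun x y hx hy => by rw [hit, hx, hy]
  rw [← ι_eq_zero (pow_mem ha _), ι_pow ha]
  refine hkk φ (fun x y => ?_) hp N (LG.ind (by simp [iterate_map_zero]) (fun n a ha => ?_) fun x y hx hy => by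
    simp only [hit, Finset.sum_add_distrib, smul_add, hx, hy, add_zero]) (ι_mem_lc _ a ha)
  · refine LG.ind (P := fun x => φ ⁅x, y⁆ = ⁅φ x, φ y⁆) (by simp) (fun i a ha => ?_)
      (fun u v hu hv => by simp only [map_add, add_lie, hu, hv]) x
    refine LG.ind (P := fun y => φ ⁅ι i a, y⁆ = ⁅φ (ι i a), φ y⁆) (by simp) (fun j b hb => ?_)
      (fun u v hu hv => by simp only [map_add, lie_add, hu, hv]) y
    rw [ι_lie ha hb, hφ _ _ ha, hφ _ _ hb, hφ _ _ (γ_comm ha hb), ι_lie (hm ha) (hm hb), map_commutatorElement]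
  · have : ∀ k, ∃ b ∈ γ G n, ∑ j ∈ Finset.range k, φ^[j] (ι n a) = ι n b := fun k => by
      induction k with
      | zero => exact ⟨1, one_mem _, by simp [ι_one]⟩
      | succ k ih =>
        obtain ⟨b, hb, e⟩ := ih
        have : (α ^ k) a ∈ γ G n := map_mem_γ (α ^ k).toMonoidHom ha
        exact ⟨_, mul_mem hb this, by rw [Finset.sum_range_succ, e, hι _ _ _ ha, ι_mul hb this]⟩
    obtain ⟨b, hb, e⟩ := this p
    have h1 : φ (ι n b) = ι n b := by
      rw [← e, map_sum]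
      have := Finset.sum_range_succ' (fun j => φ^[j] (ι n a)) p
      rw [Finset.sum_range_succ, hp] at this
      simp only [Function.iterate_succ_apply', Function.iterate_zero_apply] at this
      exact (add_right_cancel this).symm
    rw [e, ← ι_pow hb, ι_eq_zero (pow_mem hb _)]
    refine hN n b hb ((ι_eq_zero (mul_mem (inv_mem hb) (hm hb))).1 ?_)
    rw [ι_mul (inv_mem hb) (hm hb), ι_inv hb, ← hφ _ _ hb, h1, neg_add_cancel]

end Cfsg.Agent.LieM
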