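import Cfsg.Agent.BG.S1
import Cfsg.Agent.GW.Inv

/-! Fixed-point-free operator groups `A` that are `p`-nilpotent for every prime `p` dividing `#X` (`FP X A`): passage to
quotients by `p`-groups, invariant Sylow subgroups (`FP.syl`, `FP.up`), cyclic Sylow subgroups (`FP.cyc`), and the
norm argument (`FP.diag`). -/

set_option autoImplicit false
set_option linter.unusedSectionVars false
set_option linter.unusedVariables false

namespace Cfsg.Agent.LieM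

open Subgroup Cfsg.Agent.BG
open scoped commutatorElement

universe u
local notation "Sol" => Group.IsSolvable

/-- `A` acts without fixed points on `X` and is `p`-nilpotent for the primes of `#X`. -/
structure FP {G : Type*} [Group G] (X A : Subgroup G) : Prop where
  n : A ≤ N[X]
  f : X ⊓ C[A] = ⊥
  pn : ∀ p, p.Prime → p ∣ #X → ∃ B, B ⊴ A ∧ IsPiHallOf {p}ᶜ B A

namespace FP
variable {G : Type u} [Group G] [Finite G] {X Y A B D M Q R S : Subgroup G} {p q : ℕ}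

theorem sub (h : FP X A) (hY : Y ≤ X) (nY : A ≤ N[Y]) : FP Y A :=
  ⟨nY, eq_bot_iff.2 ((inf_le_inf_right _ hY).trans h.f.le), fun p hp hd => h.pn p hp (hd.trans (cardSg hY))⟩

theorem subA (h : FP X A) (hY : Y ≤ X) (hB : B ≤ A) (nY : B ≤ N[Y]) (f : Y ⊓ C[B] = ⊥) : FP Y B :=
  ⟨nY, f, fun p hp hd => by
    obtain ⟨K, h1, h2⟩ := h.pn p hp (hd.trans (cardSg hY))
    exact ⟨_, normalGI hB h1, setI_normal_Hall h1 h2 hB⟩⟩

theorem p' (h : FP X A) (hp : p.Prime) (hB : B ⊴ A) (hH : IsPiHallOf {p}ᶜ B A) : ¬ p ∣ #(X ⊓ C[B] : Subgroup G) := fun hd => by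
  haveI := Fact.mk hp
  obtain ⟨P, hP⟩ := Sylow_exists p A
  have nY : P ≤ N[X ⊓ C[B]] := hP.le.trans (normsI h.n (norms_cent hB.norm))
  obtain ⟨T, hT, PT⟩ := Sylow_superset (le_sup_right : P ≤ X ⊓ C[B] ⊔ P) hP.pg
  have h1 := Sylow_setI_normal (normalYl nY) hT
  refine pgroup_cent_ne_bot hP.pg h1.pg (normsI nY (normsG PT)) (Sylow_ne_bot h1 hd) (eq_bot_iff.2 (le_trans ?_ h.f.le))
  rw [← (sdprod_of_pHall hH hB (by rwa [compl_compl])).sup, cent_sup]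
  exact fun x hx => ⟨hx.1.1.1, hx.1.1.2, hx.2⟩

theorem pbot [hp : Fact p.Prime] (h : FP X A) (hB : B ⊴ A) (hH : IsPiHallOf {p}ᶜ B A) (pM : IsPGroup p M) (MX : M ≤ X) :
    M ⊓ C[B] = ⊥ := by_contra fun r =>
  h.p' hp.out hB hH ((pgroup_pdiv (IsPGroup.sub pM inf_le_left) r).trans (cardSg (inf_le_inf_right _ MX)))

theorem quo [hp : Fact p.Prime] (h : FP X A) (pM : IsPGroup p M) (M0 : M ≠ ⊥) (MX : M ⊴ X) (nA : A ≤ N[M]) :
    FP (X /ᵍ M) (A /ᵍ M) := by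
  refine ⟨quotient_norms _ h.n, ?_, fun r hr hd => ?_⟩
  · obtain ⟨B, hB, hH⟩ := h.pn p hp.out ((pgroup_pdiv pM M0).trans (cardSg MX.le))
    have e := coprime_quotient_cent MX.le (hB.le.trans nA) (pnat_coprime (IsPGroup.pi pM) hH.pi) (.inr (pgroup_sol pM))
    have h1 : X /ᵍ M ⊓ C[A /ᵍ M] ≤ (X ⊓ C[B]) /ᵍ M := e ▸ inf_le_inf_left _ (centS (quotientS _ hB.le))
    have h2 : X ⊓ C[B] ⊓ coquo M C[A /ᵍ M] ≤ ⊥ := by
      have h3 : X ⊓ C[B] ⊓ coquo M C[A /ᵍ M] ≤ N[M] := inf_le_right.trans (cosetpre_norm _)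
      refine le_trans (le_inf (inf_le_left.trans inf_le_left) (commG1.1 (eq_bot_iff.2 (le_trans (le_inf ?_ ?_)
        (h.pbot hB hH pM MX.le).le)))) h.f.le
      · exact (quotient_cents2 h3 nA).1 ((sub_quotient_pre h3).2 inf_le_right)
      · exact (commSg _ (inf_le_left.trans inf_le_right)).trans (commg_subl (norms_cent hB.norm))
    have h4 := quotientS M h2
    rw [quotient_setIpre, quotient_bot] at h4
    exact eq_bot_iff.2 ((le_inf h1 inf_le_right).trans h4)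
  · obtain ⟨B, hB, hH⟩ := h.pn r hr (hd.trans (dvdn_quotient _ _))
    exact ⟨_, quotient_normal _ hB, quotient_pHall nA hH⟩

theorem syl [hq : Fact q.Prime] (h : FP X A) (hs : Sol X) : ∃ Q, SylowIn q Q X ∧ A ≤ N[Q] := by
  induction hn : #X using Nat.strong_induction_on generalizing G with | _ n ih => ?_
  subst hn
  obtain rfl | X0 := eq_or_ne X ⊥
  · exact ⟨⊥, pHall_id (pgroup_bot _), by simp⟩
  obtain ⟨V, hV, VX⟩ := minnormal_exists X0 (sup_le (normG X) h.n)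
  obtain ⟨r, hr, eV⟩ := minnormal_solvable hV VX hs
  haveI := Fact.mk hr
  have nV : V ⊴ X := ⟨VX, le_sup_left.trans hV.norm⟩
  have nA : A ≤ N[V] := le_sup_right.trans hV.norm
  obtain ⟨W, hW, nW⟩ := ih _ (ltn_quotient hV.ne VX) (h.quo eV.pg hV.ne nV nA) (quotient_sol _ hs) rfl
  have WX : coquo V W ≤ X := (sub_cosetpre_quo nV).2 hW.le
  have iW : PiNat {q}ᶜ ((coquo V W).relIndex X) := by
    rw [← index_quotient_eq WX nV.norm (inf_le_right.trans (sub_cosetpre _)), cosetpreK]; exact hW.idx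
  rcases WX.lt_or_eq with lt | e
  · obtain ⟨Q, hQ, nQ⟩ := ih _ (proper_card lt) (h.sub WX (norms_cosetpre nA nW)) (solvableS WX hs) rfl
    exact ⟨Q, pHall_trans_idx hQ WX iW, nQ⟩
  obtain rfl | ne := eq_or_ne r q
  · exact ⟨X, pHall_id (e ▸ cosetpre_pgroup (IsPGroup.pi eV.pg) hW.pi), h.n⟩
  obtain ⟨B, hB, hH⟩ := h.pn r hr ((pgroup_pdiv eV.pg hV.ne).trans (cardSg VX))
  have cB : (#V).Coprime #B := pnat_coprime (IsPGroup.pi eV.pg) hH.pi
  have nB := hB.le.trans nA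
  have fr : ∀ Q, SylowIn q Q X → V ⊔ (X ⊔ A) ⊓ N[Q] = X ⊔ A := fun Q hQ => by
    have h1 : V ⊔ Q = X := sup_eq_of_coprime_idx VX hQ.le (pnat_coprime (by
      rw [← card_quotient nV.norm, ← e, cosetpreK]; exact hW.pi) hQ.idx)
    refine le_antisymm (sup_le (VX.trans le_sup_left) inf_le_left) ((Frattini_arg (normalYl h.n) hQ).ge.trans
      (sup_le (h1.ge.trans (sup_le_sup_left (le_inf (hQ.le.trans le_sup_left) (normG _)) _)) le_sup_right))
  obtain ⟨Q, hQ, nQ⟩ : ∃ Q, SylowIn q Q X ∧ B ≤ N[Q] := by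
    obtain ⟨Q, hQ⟩ := Sylow_exists q X
    have h1 : V ⊔ B = V ⊔ (V ⊔ B) ⊓ N[Q] := by
      have := group_modl (A := V) (B := (X ⊔ A) ⊓ N[Q]) (H := V ⊔ B) (.inr (inf_le_left.trans hV.norm)) le_sup_left
      have h2 : V ⊔ B ≤ X ⊔ A := sup_le_sup VX hB.le
      rwa [fr Q hQ, inf_eq_left.2 h2, ← inf_assoc, inf_eq_left.2 h2] at this
    have n1 : (V ⊔ B) ⊓ N[Q] ≤ N[V] := inf_le_left.trans (sup_le (normG _) nB)
    obtain ⟨E, hE⟩ := SchurZassenhaus_split (norm_normalI n1) ((Nat.Coprime.coprime_dvd_left (cardSg inf_le_right) cB).coprime_dvd_right (by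
      rw [inf_relIndex_left, ← relIndex_sup_norml n1, ← h1, relIndex_sup_norml nB]; exact relIndex_dvd_card _ _))
    have cE : (#V).Coprime #E := cB.coprime_dvd_right (by
      rw [← hE.relIndexl, inf_relIndex_left, ← relIndex_sup_norml n1, ← h1, relIndex_sup_norml nB]; exact relIndex_dvd_card _ _)
    obtain ⟨k, hk, ek⟩ := SchurZassenhaus_trans (B := B) (hE.ler.trans n1) (by
      rw [h1, ← hE.sup, ← sup_assoc, sup_eq_left.2 (inf_le_right : _ ≤ V)]) cE cB (.inl (pgroup_sol eV.pg))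
    exact ⟨_, pHallJsub (VX hk) hQ, by rw [ek, N_cj]; exact cj_mono _ (hE.ler.trans inf_le_right)⟩
  rcases hV.min (V ⊓ N[Q]) inf_le_left (by
    rw [← fr Q hQ]
    exact sup_le (sub_abelian_norm eV.abelian inf_le_left) (normsI (inf_le_left.trans hV.norm)
      (inf_le_right.trans (normG _)))) with h0 | h0
  · refine ⟨Q, hQ, fun a ha => ?_⟩
    obtain ⟨v, hv, m, hm, rfl⟩ := (mem_sup_norml (inf_le_left.trans hV.norm)).1 ((fr Q hQ).ge (mem_sup_right ha))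
    have h1 : v ∈ V ⊓ C[B] := ⟨hv, mem_cent.2 fun b hb => ?_⟩
    · rw [h.pbot hB hH eV.pg VX, mem_bot] at h1
      rw [h1, one_mul]; exact hm.2
    have h2 := conj_mem_of_norm' (hB.norm ha) hb
    have h3 : b⁻¹ * (v⁻¹ * b * v) ∈ V ⊓ N[Q] := ⟨by
      have := mul_mem (conj_mem_of_norm' (nB hb) (inv_mem hv)) hv
      rwa [show b⁻¹ * v⁻¹ * b * v = b⁻¹ * (v⁻¹ * b * v) by group] at this, Subgroup.mul_mem N[Q] (inv_mem (nQ hb)) (by
      have := Subgroup.mul_mem N[Q] (mul_mem hm.2 (nQ h2)) (Subgroup.inv_mem _ hm.2)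
      rwa [show m * ((v * m)⁻¹ * b * (v * m)) * m⁻¹ = v⁻¹ * b * v by group] at this)⟩
    rw [h0, mem_bot, inv_mul_eq_one] at h3
    rw [← mul_right_inj v⁻¹, ← mul_assoc, ← h3]; group
  · have h1 : X ⊔ A ≤ N[Q] := (fr Q hQ).ge.trans (sup_le (h0.ge.trans inf_le_right) inf_le_right)
    exact ⟨Q, hQ, le_sup_right.trans h1⟩

theorem up [hq : Fact q.Prime] (h : FP X A) (hs : ∀ D, D ≠ ⊥ → D ≤ X → IsPGroup q D → A ≤ N[D] → Sol (X ⊓ N[D] : Subgroup G))
    (D0 : D ≠ ⊥) (DX : D ≤ X) (pD : IsPGroup q D) (nD : A ≤ N[D]) : ∃ Q, SylowIn q Q X ∧ A ≤ N[Q] := by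
  induction hn : #X - #D using Nat.strong_induction_on generalizing D with | _ n ih => ?_
  subst hn
  obtain ⟨Q, hQ, nQ⟩ := (h.sub inf_le_left (normsI h.n (norms_norm nD))).syl (q := q) (hs D D0 DX pD nD)
  have QX := hQ.le.trans inf_le_left
  rcases (normal_sub_Hall hQ ⟨le_inf DX (normG _), inf_le_right⟩ (IsPGroup.pi pD)).lt_or_eq with lt | rfl
  · have := proper_card lt
    have := card_le_card QX
    exact ih _ (by omega) (ne_bot_of_gt lt) QX hQ.pg nQ rfl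
  · exact ⟨D, Sylow_subnorm hQ, nD⟩

theorem cyc (h : FP X A) (hc : IsCyclic R) (nR : A ≤ N[R]) (hs : Sol (X ⊓ N[R] : Subgroup G)) : X ⊓ N[R] ≤ C[R] := by
  refine le_of_Sylow_le fun s hs' hd => ?_
  haveI := Fact.mk hs'
  have h1 := h.sub inf_le_left (normsI h.n (norms_norm nR))
  obtain ⟨Q, hQ, nQ⟩ := h1.syl (q := s) hs
  obtain ⟨B, hB, hH⟩ := h1.pn s hs' hd
  have h2 := coprime_cent_prod (hB.le.trans nQ) (pnat_coprime hQ.pi hH.pi) (pgroup_sol hQ.pg)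
  rw [h1.pbot hB hH hQ.pg hQ.le, sup_bot_eq] at h2
  exact ⟨Q, hQ, h2.ge.trans ((commgSS (hQ.le.trans inf_le_right) (hB.le.trans nR)).trans (der1_cent_cyclic hc le_rfl))⟩

theorem diag (h : FP X A) (SX : S ≤ X) (hZ : S ⊓ C[S] = ⊥) (hc : ∀ a ∈ A, a ∈ N[S] ∨ cj a S ≤ C[S]) :
    S ⊓ C[A ⊓ N[S]] = ⊥ := eq_bot_iff.2 fun x hx => by
  classical
  let O : Set G := {y | ∃ a ∈ A, a * x * a⁻¹ = y}
  have h1 : ∀ y ∈ O, y = x ∨ y ∈ C[S] := by
    rintro _ ⟨a, ha, rfl⟩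
    refine (hc a ha).imp (fun r => ?_) fun r => r (conj_mem_cj a hx.1)
    rw [mem_cent.1 hx.2 a ⟨ha, r⟩, mul_inv_cancel_right]
  have h2 : ∀ a ∈ A, ∀ y ∈ O, a * y * a⁻¹ ∈ O := by
    rintro a ha _ ⟨b, hb, rfl⟩
    exact ⟨a * b, mul_mem ha hb, by group⟩
  have h3 : ∀ y ∈ O, ∀ z ∈ O, y * z = z * y := by
    rintro _ ⟨a, ha, rfl⟩ z hz
    have : x * (a⁻¹ * z * a⁻¹⁻¹) = a⁻¹ * z * a⁻¹⁻¹ * x := by
      rcases h1 _ (h2 _ (inv_mem ha) z hz) with r | r
      · rw [r]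
      · exact mem_cent.1 r x hx.1
    calc _ = a * (x * (a⁻¹ * z * a⁻¹⁻¹)) * a⁻¹ := by group
      _ = _ := by rw [this]; group
  let D := closure O
  haveI : IsMulCommutative D := isMulCommutative_closure h3
  have := Fintype.ofFinite D
  have nD : A ≤ N[D] := norms_closure h2
  have xO : x ∈ O := ⟨1, one_mem _, by simp⟩
  open scoped IsMulCommutative in
  let T : Finset D := Finset.univ.filter fun y => y.1 ∈ O
  open scoped IsMulCommutative in
  have h4 : ((∏ y ∈ T, y : D) : G) ∈ X ⊓ C[A] := by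
    refine ⟨(closure_le X).2 ?_ (∏ y ∈ T, y : D).2, mem_cent.2 fun a ha => ?_⟩
    · rintro _ ⟨a, ha, rfl⟩
      exact conj_mem_of_norm (h.n ha) (SX hx.1)
    have e : conjAut D ⟨a, nD ha⟩ (∏ y ∈ T, y) = ∏ y ∈ T, y := by
      rw [map_prod]
      refine Finset.prod_equiv (conjAut D ⟨a, nD ha⟩).toEquiv (fun y => ?_) fun _ _ => rfl
      simp only [T, Finset.mem_filter, Finset.mem_univ, true_and]
      exact ⟨h2 a ha _, fun r => by simpa [mul_assoc, conjAut_apply] using h2 _ (inv_mem ha) _ r⟩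
    exact mul_inv_eq_iff_eq_mul.1 (congrArg Subtype.val e)
  rw [h.f, mem_bot] at h4
  open scoped IsMulCommutative in
  have h5 : (∏ y ∈ T.erase ⟨x, subset_closure xO⟩, y : D) ∈ C[S].subgroupOf D := Subgroup.prod_mem _ fun y hy =>
    (h1 _ (Finset.mem_filter.1 (Finset.mem_of_mem_erase hy)).2).resolve_left fun r =>
      Finset.ne_of_mem_erase hy (Subtype.ext r)
  open scoped IsMulCommutative in
  rw [← Finset.mul_prod_erase T _ (a := ⟨x, subset_closure xO⟩) (Finset.mem_filter.2 ⟨Finset.mem_univ _, xO⟩), coe_mul,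
    mul_eq_one_iff_eq_inv] at h4
  exact hZ.le ⟨hx.1, (show x = _ from h4) ▸ Subgroup.inv_mem C[S] h5⟩

end FP
end Cfsg.Agent.LieM
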