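import Mathlib.Algebra.Lie.Basic
import Mathlib.Combinatorics.Additive.CauchyDavenport
import Mathlib.Algebra.BigOperators.Ring.Finset
import Mathlib.Tactic.Abel
import Mathlib.Tactic.Ring

/-!
`ℤ/p`-graded Lie rings with trivial zero component (helper2).  A grading is a family `M : ZMod p → AddSubgroup K`
with `⁅M i, M j⁆ ≤ M (i + j)` (no directness needed).  Kreknin's theorem (`der_eq_bot`: derived length at most
`2 ^ (p - 1) - 1`), Kreknin–Kostrikin (`lcs_le_der`) and together `lcs_eq_bot` (class at most `xi`).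
-/

namespace Cfsg.Agent.LieM

variable {K : Type*} [LieRing K] {p : ℕ}

/-- families of additive subgroups indexed by `ZMod p` -/
abbrev Fam (p : ℕ) (K : Type*) [LieRing K] := ZMod p → AddSubgroup K

/-- the graded bracket of two families -/
def br (A B : Fam p K) : Fam p K := fun k =>
  AddSubgroup.closure {z | ∃ i j x y, x ∈ A i ∧ y ∈ B j ∧ i + j = k ∧ z = ⁅x, y⁆}

variable {A B C D M V W : Fam p K} {i j k : ZMod p} {x y : K}

theorem lie_mem_br (hx : x ∈ A i) (hy : y ∈ B j) : ⁅x, y⁆ ∈ br A B (i + j) :=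
  AddSubgroup.subset_closure ⟨i, j, x, y, hx, hy, rfl, rfl⟩

theorem br_le (h : ∀ i j x y, x ∈ A i → y ∈ B j → ⁅x, y⁆ ∈ C (i + j)) : br A B ≤ C := fun _ =>
  (AddSubgroup.closure_le _).2 fun _ ⟨i, j, x, y, hx, hy, e, ez⟩ => ez ▸ e ▸ h i j x y hx hy

theorem br_mono (h1 : A ≤ C) (h2 : B ≤ D) : br A B ≤ br C D :=
  br_le fun i j _ _ hx hy => lie_mem_br (h1 i hx) (h2 j hy)

/-- right multiplication -/
def adR (m : K) : K →+ K := AddMonoidHom.mk' (fun z => ⁅z, m⁆) fun a b => add_lie a b m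

theorem br_br_le (h : ∀ i j l x y m, x ∈ A i → y ∈ B j → m ∈ C l → ⁅⁅x, y⁆, m⁆ ∈ D (i + j + l)) :
    br (br A B) C ≤ D := by
  refine br_le fun k l z m hz hm => ?_
  have : br A B k ≤ (D (k + l)).comap (adR m) :=
    (AddSubgroup.closure_le _).2 fun _ ⟨i, j, x, y, hx, hy, e, ez⟩ => ez ▸ e ▸ h i j l x y m hx hy hm
  exact this hz

theorem br_ideal (hV : br V M ≤ V) (hW : br W M ≤ W) : br (br V W) M ≤ br V W := by
  refine br_br_le fun i j l x y m hx hy hm => ?_
  have e : ⁅⁅x, y⁆, m⁆ = ⁅x, ⁅y, m⁆⁆ + ⁅⁅x, m⁆, y⁆ := by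
    rw [lie_lie, ← lie_skew ⁅x, m⁆ y]; abel
  rw [e]
  refine add_mem ?_ ?_
  · rw [add_assoc]; exact lie_mem_br hx (hW _ (lie_mem_br hy hm))
  · rw [add_right_comm]; exact lie_mem_br (hV _ (lie_mem_br hx hm)) hy

/-- the derived series -/
def der (M : Fam p K) : ℕ → Fam p K
  | 0 => M
  | n + 1 => br (der M n) (der M n)

theorem der_succ' (M : Fam p K) (n : ℕ) : der M (n + 1) = der (br M M) n := by
  induction n with
  | zero => rfl
  | succ n ih => rw [der, ih]; rfl

theorem der_add (M : Fam p K) (m n : ℕ) : der M (m + n) = der (der M m) n := by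
  induction n with
  | zero => rfl
  | succ n ih => rw [← add_assoc, der, ih]; rfl

theorem der_le (hM : br M M ≤ M) (n : ℕ) : der M n ≤ M := by
  induction n with
  | zero => exact le_rfl
  | succ n ih => exact (br_mono ih ih).trans hM

theorem der_closed (hM : br M M ≤ M) (n : ℕ) : br (der M n) (der M n) ≤ der M n := by
  induction n with
  | zero => exact hM
  | succ n ih => exact br_mono ih ih

/-- the subring generated by the components of index at least `n` -/
inductive Gen (M : Fam p K) (n : ℕ) : ZMod p → K → Prop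
  | base {j : ZMod p} {x : K} : n ≤ j.val → x ∈ M j → Gen M n j x
  | zero {j : ZMod p} : Gen M n j 0
  | add {j : ZMod p} {x y : K} : Gen M n j x → Gen M n j y → Gen M n j (x + y)
  | neg {j : ZMod p} {x : K} : Gen M n j x → Gen M n j (-x)
  | lie {i j : ZMod p} {x y : K} : Gen M n i x → Gen M n j y → Gen M n (i + j) ⁅x, y⁆

/-- `Gen` as a family -/
def gen (M : Fam p K) (n : ℕ) : Fam p K := fun j =>
  { carrier := {x | Gen M n j x}, zero_mem' := .zero, add_mem' := .add, neg_mem' := .neg }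

theorem gen_le {n : ℕ} (hC : br C C ≤ C) (h : ∀ j : ZMod p, n ≤ j.val → M j ≤ C j) : gen M n ≤ C := by
  intro j x hx
  change Gen M n j x at hx
  induction hx with
  | base hj hx => exact h _ hj hx
  | zero => exact zero_mem _
  | add _ _ i1 i2 => exact add_mem i1 i2
  | neg _ i1 => exact neg_mem i1
  | lie _ _ i1 i2 => exact hC _ (lie_mem_br i1 i2)

theorem gen_closed {n : ℕ} : br (gen M n) (gen M n) ≤ gen M n := br_le fun _ _ _ _ hx hy => Gen.lie hx hy

/-- the components of index at least `n` -/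
def top (M : Fam p K) (n : ℕ) : Fam p K := fun j => if n ≤ j.val then M j else ⊥

theorem br_gen_le {n : ℕ} (hM : br M M ≤ M) : br M (gen M n) ≤ br M (top M n) := by
  refine br_le fun i j x y hx hy => ?_
  change Gen M n j y at hy
  induction hy generalizing i x with
  | base hj hy => exact lie_mem_br hx (by rwa [top, if_pos hj])
  | zero => rw [lie_zero]; exact zero_mem _
  | add _ _ i1 i2 => rw [lie_add]; exact add_mem (i1 _ _ hx) (i2 _ _ hx)
  | neg _ i1 => rw [lie_neg]; exact neg_mem (i1 _ _ hx)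
  | @lie a b u v h1 h2 i1 i2 =>
    have hg : gen M n ≤ M := gen_le hM fun _ _ => le_rfl
    have e : ⁅x, ⁅u, v⁆⁆ = ⁅⁅x, u⁆, v⁆ - ⁅⁅x, v⁆, u⁆ := by
      rw [leibniz_lie, ← lie_skew ⁅x, v⁆ u]; abel
    rw [e]
    refine sub_mem ?_ ?_
    · rw [← add_assoc]; exact i2 _ _ (hM _ (lie_mem_br hx (hg _ h1)))
    · rw [add_comm a, ← add_assoc]; exact i1 _ _ (hM _ (lie_mem_br hx (hg _ h2)))

theorem br_top_le [NeZero p] (h0 : M 0 = ⊥) : br M (top M k.val) k ≤ gen M (k.val + 1) k := by
  refine (AddSubgroup.closure_le _).2 ?_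
  rintro _ ⟨a, b, u, v, hu, hv, e, rfl⟩
  by_cases hb : k.val ≤ b.val
  swap
  · rw [top, if_neg hb, AddSubgroup.mem_bot] at hv
    rw [hv, lie_zero]; exact zero_mem _
  rw [top, if_pos hb] at hv
  by_cases ha : a = 0
  · rw [ha, h0, AddSubgroup.mem_bot] at hu
    rw [hu, zero_lie]; exact zero_mem _
  have h1 := ZMod.val_add a b
  rw [e] at h1
  have h2 := ZMod.val_lt a
  have h3 := ZMod.val_lt b
  have h4 : a.val ≠ 0 := fun h => ha ((ZMod.val_eq_zero a).1 h)
  have h5 : p ≤ a.val + b.val := by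
    by_contra h
    rw [Nat.mod_eq_of_lt (by omega)] at h1
    omega
  rw [Nat.mod_eq_sub_mod h5, Nat.mod_eq_of_lt (by omega)] at h1
  rw [← e]
  exact Gen.lie (.base (by rw [e]; omega) hu) (.base (by rw [e]; omega) hv)

theorem der_le_gen [NeZero p] (n : ℕ) : ∀ M : Fam p K, br M M ≤ M → M 0 = ⊥ → der M (2 ^ n - 1) ≤ gen M (n + 1) := by
  induction n with
  | zero =>
    intro M _ h0 j x hx
    by_cases hj : j = 0
    · have hx : x ∈ M j := hx
      rw [hj, h0, AddSubgroup.mem_bot] at hx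
      rw [hx]; exact zero_mem _
    · exact Gen.base (Nat.pos_of_ne_zero fun h => hj ((ZMod.val_eq_zero j).1 h)) hx
  | succ n ih =>
    intro M hM h0
    have hp : 1 ≤ 2 ^ n := Nat.one_le_two_pow
    rw [show 2 ^ (n + 1) - 1 = 2 ^ n + (2 ^ n - 1) by omega, der_add]
    refine (ih _ (der_closed hM _) (le_bot_iff.1 ((der_le hM _ 0).trans h0.le))).trans (gen_le gen_closed fun j hj => ?_)
    rcases hj.eq_or_lt with hj | hj
    · rw [show 2 ^ n = 2 ^ n - 1 + 1 by omega, der]
      refine (br_mono (der_le hM _) (ih M hM h0) j).trans ((br_gen_le hM j).trans ?_)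
      rw [hj]; exact br_top_le h0
    · exact fun x hx => Gen.base hj (der_le hM _ j hx)

/-- Kreknin's theorem -/
theorem der_eq_bot [NeZero p] (hM : br M M ≤ M) (h0 : M 0 = ⊥) : der M (2 ^ (p - 1) - 1) = ⊥ := by
  refine le_bot_iff.1 ((der_le_gen _ M hM h0).trans (gen_le (br_le fun i j x y hx _ => ?_) fun j hj => ?_))
  · have hx : x = 0 := hx
    rw [hx, zero_lie]; exact zero_mem _
  · have := ZMod.val_lt j
    omega

/-- `V, ⁅V, M⁆, ⁅V, M, M⁆, …` -/
def it (V M : Fam p K) : ℕ → Fam p K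
  | 0 => V
  | n + 1 => br (it V M n) M

theorem it_add (V M : Fam p K) (m n : ℕ) : it V M (m + n) = it (it V M m) M n := by
  induction n with
  | zero => rfl
  | succ n ih => rw [← add_assoc, it, ih]; rfl

theorem it_mono (h : V ≤ W) (n : ℕ) : it V M n ≤ it W M n := by
  induction n with
  | zero => exact h
  | succ n ih => exact br_mono ih le_rfl

theorem it_ideal (hV : br V M ≤ V) (hW : br W M ≤ W) (n : ℕ) : br (it V W n) M ≤ it V W n := by
  induction n with
  | zero => exact hV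
  | succ n ih => exact br_ideal ih hW

theorem it_le (hV : br V M ≤ V) (hW : W ≤ M) (n : ℕ) : it V W n ≤ V := by
  induction n with
  | zero => exact le_rfl
  | succ n ih => exact (br_mono ih hW).trans hV

/-- left-normed bracket -/
def rb (v : K) (l : List (ZMod p × K)) : K := l.foldl (fun a x => ⁅a, x.2⁆) v

/-- total degree of a list -/
def dg (l : List (ZMod p × K)) : ZMod p := (l.map Prod.fst).sum

theorem rb_mem (hV : br V M ≤ V) (l : List (ZMod p × K)) (hl : ∀ x ∈ l, x.2 ∈ M x.1) :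
    ∀ i v, v ∈ V i → rb v l ∈ V (i + dg l) := by
  induction l with
  | nil => intro i v hv; simpa [rb, dg] using hv
  | cons a l ih =>
    intro i v hv
    have := ih (fun x hx => hl x (List.mem_cons_of_mem _ hx)) _ _ (hV _ (lie_mem_br hv (hl a List.mem_cons_self)))
    simpa [rb, dg, add_assoc] using this

theorem rb_sub (u v : K) (l : List (ZMod p × K)) : rb (u - v) l = rb u l - rb v l := by
  induction l generalizing u v with
  | nil => rfl
  | cons a l ih => simpa [rb, sub_lie] using ih ⁅u, a.2⁆ ⁅v, a.2⁆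

theorem rb_zero (l : List (ZMod p × K)) : rb 0 l = 0 := by simpa using rb_sub 0 0 l

theorem rb_perm (hM : br M M ≤ M) (hV : br V M ≤ V) {l l' : List (ZMod p × K)} (h : l.Perm l') :
    (∀ x ∈ l, x.2 ∈ M x.1) → ∀ i v, v ∈ V i → rb v l - rb v l' ∈ br V (br M M) (i + dg l) := by
  induction h with
  | nil => intro _ i v _; rw [sub_self]; exact zero_mem _
  | cons a _ ih =>
    intro hl i v hv
    have := ih (fun x hx => hl x (List.mem_cons_of_mem _ hx)) _ _ (hV _ (lie_mem_br hv (hl a List.mem_cons_self)))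
    simpa [rb, dg, add_assoc] using this
  | swap a b l =>
    intro hl i v hv
    have hb := hl b List.mem_cons_self
    have ha := hl a (List.mem_cons_of_mem _ List.mem_cons_self)
    have := rb_mem (br_ideal hV (br_ideal hM hM)) l
      (fun x hx => hl x (List.mem_cons_of_mem _ (List.mem_cons_of_mem _ hx))) _ _ (lie_mem_br hv (lie_mem_br hb ha))
    have e : ⁅v, ⁅b.2, a.2⁆⁆ = ⁅⁅v, b.2⁆, a.2⁆ - ⁅⁅v, a.2⁆, b.2⁆ := by
      rw [leibniz_lie, ← lie_skew ⁅v, a.2⁆ b.2]; abel
    rw [e, rb_sub] at this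
    simpa [rb, dg, add_assoc] using this
  | @trans l1 l2 l3 h1 _ i1 i2 =>
    intro hl i v hv
    have e : dg l2 = dg l1 := (h1.map _).sum_eq.symm
    have := add_mem (i1 hl i v hv) (e ▸ i2 (fun x hx => hl x (h1.mem_iff.2 hx)) i v hv)
    rwa [sub_add_sub_cancel] at this

theorem exists_sub_sum [hp : Fact p.Prime] {α : Type*} (f : α → ZMod p) (l : List α) (hl : ∀ x ∈ l, f x ≠ 0) :
    ∃ s : Finset (ZMod p), min p (l.length + 1) ≤ s.card ∧
      ∀ t ∈ s, ∃ l1 l2, l.Perm (l1 ++ l2) ∧ (l1.map f).sum = t := by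
  classical
  induction l with
  | nil => exact ⟨{0}, by simp, fun t ht => ⟨[], [], by simp, by simpa [eq_comm] using ht⟩⟩
  | cons a l ih =>
    obtain ⟨s, hs, h⟩ := ih fun x hx => hl x (List.mem_cons_of_mem _ hx)
    have ha := hl a List.mem_cons_self
    have hne : s.Nonempty := Finset.card_pos.1 (lt_of_lt_of_le (by have := hp.out.pos; omega) hs)
    have := ZMod.cauchy_davenport hp.out hne (Finset.insert_nonempty 0 {f a})
    rw [Finset.card_pair ha.symm] at this
    refine ⟨_, le_trans (by simp only [List.length_cons]; omega) this, fun t ht => ?_⟩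
    obtain ⟨u, hu, w, hw, rfl⟩ := Finset.mem_add.1 ht
    obtain ⟨l1, l2, h1, rfl⟩ := h u hu
    rcases Finset.mem_insert.1 hw with rfl | hw
    · exact ⟨l1, a :: l2, (h1.cons a).trans List.perm_middle.symm, by simp⟩
    · rw [Finset.mem_singleton.1 hw]
      exact ⟨a :: l1, l2, h1.cons a, by simp [add_comm]⟩

theorem rb_mem_br [hp : Fact p.Prime] (hM : br M M ≤ M) (h0 : M 0 = ⊥) (hV : br V M ≤ V) (hVM : V ≤ M)
    (l : List (ZMod p × K)) (hl : ∀ x ∈ l, x.2 ∈ M x.1) (hlen : l.length + 1 = p) {v : K} (hv : v ∈ V i) :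
    rb v l ∈ br V (br M M) (i + dg l) := by
  suffices ∃ l', l.Perm l' ∧ rb v l' = 0 by
    obtain ⟨l', h, e⟩ := this
    have := rb_perm hM hV h hl i v hv
    rwa [e, sub_zero] at this
  by_cases h : ∃ x ∈ l, x.1 = 0
  · obtain ⟨x, hx, e⟩ := h
    obtain ⟨l1, l2, rfl⟩ := List.append_of_mem hx
    have := hl x hx
    rw [e, h0, AddSubgroup.mem_bot] at this
    exact ⟨_, List.perm_middle, by simpa [rb, this] using rb_zero (l1 ++ l2)⟩
  · push Not at h
    obtain ⟨s, hs, H⟩ := exists_sub_sum Prod.fst l h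
    have hs : s = Finset.univ := Finset.eq_univ_of_card _ (le_antisymm (Finset.card_le_univ _) (by
      rw [ZMod.card]; omega))
    obtain ⟨l1, l2, h1, e⟩ := H (-i) (hs ▸ Finset.mem_univ _)
    refine ⟨_, h1, ?_⟩
    have := hVM _ (rb_mem hV l1 (fun x hx => hl x (h1.mem_iff.2 (List.mem_append_left _ hx))) i v hv)
    rw [dg, e, add_neg_cancel, h0, AddSubgroup.mem_bot] at this
    rw [rb, List.foldl_append]
    exact (congrArg (rb · l2) this).trans (rb_zero l2)

theorem it_le_of_rb (n : ℕ) : ∀ {W : Fam p K}, (∀ l : List (ZMod p × K), (∀ x ∈ l, x.2 ∈ M x.1) → l.length = n →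
    ∀ i v, v ∈ V i → rb v l ∈ W (i + dg l)) → it V M n ≤ W := by
  induction n with
  | zero => intro W h i v hv; simpa [rb, dg] using h [] (by simp) rfl i v hv
  | succ n ih =>
    intro W h
    refine br_le fun i j x y hx hy => ?_
    refine ih (W := fun k => (W (k + j)).comap (adR y)) (fun l hl hn i v hv => ?_) i hx
    have := h (l ++ [(j, y)]) (fun x hx => by
      rcases List.mem_append.1 hx with hx | hx
      · exact hl x hx
      · rw [List.mem_singleton.1 hx]; exact hy) (by simp [hn]) i v hv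
    simpa [rb, dg, add_assoc, adR] using this

/-- `ξ s = 1 + (p - 1) + ⋯ + (p - 1) ^ (s - 1)` -/
def xi (p s : ℕ) : ℕ := ∑ i ∈ Finset.range s, (p - 1) ^ i

theorem xi_succ (p s : ℕ) : xi p (s + 1) = (p - 1) * xi p s + 1 := by
  simp only [xi, Finset.sum_range_succ', Finset.mul_sum, pow_zero, pow_succ']

theorem it_le_it [hp : Fact p.Prime] (hM : br M M ≤ M) (h0 : M 0 = ⊥) (n : ℕ) :
    it M M ((p - 1) * n + 1) ≤ it (br M M) (br M M) n := by
  induction n with
  | zero => exact le_rfl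
  | succ n ih =>
    rw [show (p - 1) * (n + 1) + 1 = (p - 1) * n + 1 + (p - 1) by ring, it_add]
    refine (it_mono ih _).trans (it_le_of_rb _ fun l hl hn i v hv => ?_)
    have h1 := br_ideal hM hM
    exact rb_mem_br hM h0 (it_ideal h1 h1 n) ((it_le h1 hM n).trans hM) l hl (by have := hp.out.pos; omega) hv

/-- Kreknin–Kostrikin -/
theorem lcs_le_der [Fact p.Prime] (s : ℕ) : ∀ M : Fam p K, br M M ≤ M → M 0 = ⊥ → it M M (xi p s) ≤ der M s := by
  induction s with
  | zero => intro M _ _; exact le_rfl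
  | succ s ih =>
    intro M hM h0
    rw [xi_succ, der_succ']
    exact (it_le_it hM h0 _).trans (ih _ (br_mono hM hM) (le_bot_iff.1 ((hM 0).trans h0.le)))

theorem lcs_eq_bot [Fact p.Prime] (hM : br M M ≤ M) (h0 : M 0 = ⊥) : it M M (xi p (2 ^ (p - 1) - 1)) = ⊥ :=
  le_bot_iff.1 ((lcs_le_der _ M hM h0).trans (der_eq_bot hM h0).le)

end Cfsg.Agent.LieM
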