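import Cfsg.Agent.LieM.Graded
import Mathlib.Algebra.Lie.BaseChange
import Mathlib.Algebra.Lie.Quotient
import Mathlib.RingTheory.AdjoinRoot
import Mathlib.Algebra.Field.ZMod

/-!
The Higman–Kreknin–Kostrikin theorem for Lie rings (helper2): if `φ` is an automorphism of a Lie ring `L` with
`φ ^ p = 1` and `N` kills all the traces `∑ φ ^ j x`, then `N * p ^ (c + 1)` kills the `c`-th term `lc L c` of
the lower central series, `c = xi p (2 ^ (p - 1) - 1)` (`hkk`).
-/

namespace Cfsg.Agent.LieM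

open scoped TensorProduct

/-- the lower central series of a Lie ring, `lc L 0 = ⊤` -/
def lc (L : Type*) [LieRing L] : ℕ → AddSubgroup L
  | 0 => ⊤
  | n + 1 => AddSubgroup.closure {z | ∃ x y, x ∈ lc L n ∧ z = ⁅x, y⁆}

theorem lie_mem_lc {L : Type*} [LieRing L] {n : ℕ} {x : L} (hx : x ∈ lc L n) (y : L) : ⁅x, y⁆ ∈ lc L (n + 1) :=
  AddSubgroup.subset_closure ⟨x, y, hx, rfl⟩

theorem map_mem_lc {L K : Type*} [LieRing L] [LieRing K] (f : L →+ K) (hf : ∀ x y, f ⁅x, y⁆ = ⁅f x, f y⁆) (n : ℕ) :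
    lc L n ≤ (lc K n).comap f := by
  induction n with
  | zero => exact fun _ _ => trivial
  | succ n ih =>
    refine (AddSubgroup.closure_le _).2 ?_
    rintro _ ⟨x, y, hx, rfl⟩
    show f ⁅x, y⁆ ∈ lc K (n + 1)
    rw [hf]; exact lie_mem_lc (ih hx) _

variable {p : ℕ} [hp : Fact p.Prime]

theorem nsmul_mem_iSup {K Q : Type*} [LieRing K] [LieRing Q] (π : K →+ Q) (hπ : ∀ x y, π ⁅x, y⁆ = ⁅π x, π y⁆)
    (M : Fam p Q) (hM : ∀ y, p • π y ∈ ⨆ i, M i) (n : ℕ) :
    ∀ y ∈ lc K n, p ^ (n + 1) • π y ∈ ⨆ i, it M M n i := by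
  induction n with
  | zero => intro y _; simpa [it] using hM y
  | succ n ih =>
    intro z hz
    have : lc K (n + 1) ≤ (⨆ i, it M M (n + 1) i).comap ((nsmulAddMonoidHom (p ^ (n + 1 + 1))).comp π) := by
      refine (AddSubgroup.closure_le _).2 ?_
      rintro _ ⟨x, y, hx, rfl⟩
      show p ^ (n + 1 + 1) • π ⁅x, y⁆ ∈ ⨆ i, it M M (n + 1) i
      rw [hπ, pow_succ, mul_smul, ← lie_nsmul, ← nsmul_lie]
      refine AddSubgroup.iSup_induction (C := fun u => ⁅u, p • π y⁆ ∈ ⨆ i, it M M (n + 1) i) _ (ih x hx)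
        (fun i u hu => ?_) (by simp) (fun a b ha hb => by rw [add_lie]; exact add_mem ha hb)
      refine AddSubgroup.iSup_induction (C := fun v => ⁅u, v⁆ ∈ ⨆ i, it M M (n + 1) i) _ (hM y)
        (fun j v hv => ?_) (by simp) (fun a b ha hb => by rw [lie_add]; exact add_mem ha hb)
      exact AddSubgroup.mem_iSup_of_mem (i + j) (lie_mem_br hu hv)
    exact this hz

theorem hkk_aux {A K : Type*} [CommRing A] [LieRing K] [LieAlgebra A K] (χ : ZMod p → A)
    (χ0 : χ 0 = 1) (χa : ∀ a b, χ (a + b) = χ a * χ b) (χs : ∑ i, χ i = 0) (ψ : ZMod p → K →ₗ[A] K)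
    (ψ0 : ∀ x, ψ 0 x = x) (ψa : ∀ a b x, ψ (a + b) x = ψ a (ψ b x)) (ψl : ∀ a x y, ψ a ⁅x, y⁆ = ⁅ψ a x, ψ a y⁆)
    (N : ℕ) (hN : ∀ x, N • ∑ j, ψ j x = 0) {y : K} (hy : y ∈ lc K (xi p (2 ^ (p - 1) - 1))) :
    (N * p ^ (xi p (2 ^ (p - 1) - 1) + 1)) • y = 0 := by
  let J : LieIdeal A K :=
    { carrier := {y | N • y = 0}
      zero_mem' := smul_zero _
      add_mem' := fun {a b} (ha : N • a = 0) (hb : N • b = 0) => show N • (a + b) = 0 by rw [smul_add, ha, hb, add_zero]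
      smul_mem' := fun c a (ha : N • a = 0) => show N • (c • a) = 0 by rw [smul_comm, ha, smul_zero]
      lie_mem := fun {a b} (hb : N • b = 0) => show N • ⁅a, b⁆ = 0 by rw [← lie_nsmul, hb, lie_zero] }
  let π : K →+ K ⧸ J := (LieSubmodule.Quotient.mk' J).toLinearMap.toAddMonoidHom
  have hπ : ∀ x y, π ⁅x, y⁆ = ⁅π x, π y⁆ := fun x y => LieSubmodule.Quotient.mk_bracket J x y
  have hπ0 : ∀ x, π x = 0 ↔ N • x = 0 := fun x => LieSubmodule.Quotient.mk_eq_zero J
  let e : ZMod p → K →ₗ[A] K := fun i => ∑ j, χ (i * j) • ψ j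
  have he : ∀ i x, e i x = ∑ j, χ (i * j) • ψ j x := fun i x => by simp [e]
  have he1 : ∀ a j y, χ (j * a) • ψ a (e j y) = e j y := fun a j y => by
    rw [he, map_sum, Finset.smul_sum, ← Equiv.sum_comp (Equiv.addLeft a) fun b => χ (j * b) • ψ b y]
    refine Finset.sum_congr rfl fun b _ => ?_
    rw [Equiv.coe_addLeft, map_smul, smul_smul, mul_add, χa, ψa]
  have he2 : ∀ i j x y, ⁅e i x, e j y⁆ = e (i + j) ⁅x, e j y⁆ := fun i j x y => by
    rw [he i, he (i + j), sum_lie]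
    refine Finset.sum_congr rfl fun a _ => ?_
    rw [ψl, add_mul, χa, mul_smul, ← lie_smul, he1, smul_lie]
  have he3 : ∀ x, ∑ i, e i x = p • x := fun x => by
    simp only [he]
    rw [Finset.sum_comm, Finset.sum_eq_single 0]
    · simp [χ0, ψ0]
    · intro j _ hj
      rw [← Finset.sum_smul, show ∑ i, χ (i * j) = 0 from (Equiv.sum_comp (Equiv.mulRight₀ j hj) χ).trans χs, zero_smul]
    · simp
  let M : Fam p (K ⧸ J) := fun i => (π.comp (e i).toAddMonoidHom).range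
  have hM : br M M ≤ M := br_le (by
    rintro i j _ _ ⟨x, rfl⟩ ⟨y, rfl⟩
    exact ⟨⁅x, e j y⁆, (congrArg π (he2 i j x y)).symm.trans (hπ _ _)⟩)
  have h0 : M 0 = ⊥ := by
    refine (AddSubgroup.eq_bot_iff_forall _).2 ?_
    rintro _ ⟨x, rfl⟩
    refine (hπ0 _).2 ?_
    show N • e 0 x = 0
    simpa [he, χ0] using hN x
  have := nsmul_mem_iSup π hπ M (fun y => by
    rw [← map_nsmul, ← he3, map_sum]
    exact sum_mem fun i _ => AddSubgroup.mem_iSup_of_mem i ⟨y, rfl⟩) _ y hy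
  rw [lcs_eq_bot hM h0] at this
  rw [mul_smul, ← hπ0, map_nsmul]
  simpa using this

theorem sum_zmod {β : Type*} [AddCommMonoid β] (f : ℕ → β) : ∑ j : ZMod p, f j.val = ∑ j ∈ Finset.range p, f j := by
  obtain ⟨n, rfl⟩ : ∃ n, p = n + 1 := ⟨p - 1, by have := hp.out.pos; omega⟩
  exact Fin.sum_univ_eq_sum_range f (n + 1)

open Polynomial in
theorem exists_cyc (p : ℕ) [hp : Fact p.Prime] : ∃ (A : Type) (_ : CommRing A) (χ : ZMod p → A) (r : A →ₗ[ℤ] ℤ),
    χ 0 = 1 ∧ (∀ a b, χ (a + b) = χ a * χ b) ∧ ∑ i, χ i = 0 ∧ r 1 = 1 := by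
  let f : ℤ[X] := ∑ i ∈ Finset.range p, X ^ i
  have hf : f.Monic := monic_geom_sum_X hp.out.ne_zero
  have hd : f.natDegree = p - 1 := by
    have h1 : (f * (X - C 1)).natDegree = p := by rw [C_1, geom_sum_mul, ← C_1, natDegree_X_pow_sub_C]
    rw [hf.natDegree_mul (monic_X_sub_C 1), natDegree_X_sub_C] at h1
    omega
  have h0 : ∑ i ∈ Finset.range p, AdjoinRoot.root f ^ i = 0 := by
    have := AdjoinRoot.mk_self (f := f)
    simpa [f, map_sum] using this
  have h1 : AdjoinRoot.root f ^ p = 1 := by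
    have := geom_sum_mul (AdjoinRoot.root f) p
    rw [h0, zero_mul] at this
    exact (sub_eq_zero.1 this.symm)
  refine ⟨AdjoinRoot f, inferInstance, fun i => AdjoinRoot.root f ^ i.val,
    (lcoeff ℤ 0).comp (AdjoinRoot.modByMonicHom hf), by simp, fun a b => ?_, (sum_zmod _).trans h0, ?_⟩
  · simp only [ZMod.val_add, ← pow_add, ← pow_eq_pow_mod _ h1]
  · rw [← (AdjoinRoot.mk f).map_one, LinearMap.comp_apply, AdjoinRoot.modByMonicHom_mk,
      (modByMonic_eq_self_iff hf).2 (by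
        rw [degree_one, degree_eq_natDegree hf.ne_zero, hd]
        have := hp.out.two_le
        exact_mod_cast (by omega : 0 < p - 1))]
    simp

/-- Higman–Kreknin–Kostrikin -/
theorem hkk {L : Type*} [LieRing L] (φ : L →+ L) (hφ : ∀ x y, φ ⁅x, y⁆ = ⁅φ x, φ y⁆) (hφp : ∀ x, φ^[p] x = x)
    (N : ℕ) (hN : ∀ x, N • ∑ j ∈ Finset.range p, φ^[j] x = 0) {y : L} (hy : y ∈ lc L (xi p (2 ^ (p - 1) - 1))) :
    (N * p ^ (xi p (2 ^ (p - 1) - 1) + 1)) • y = 0 := by
  obtain ⟨A, _, χ, r, χ0, χa, χs, r1⟩ := exists_cyc p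
  let Φ : Module.End ℤ L := φ.toIntLinearMap
  have hΦ : ∀ j x, (Φ ^ j) x = φ^[j] x := fun j x => by rw [Module.End.pow_apply]; rfl
  have hΦp : Φ ^ p = 1 := LinearMap.ext fun x => (hΦ p x).trans (hφp x)
  have hl : ∀ j x y, φ^[j] ⁅x, y⁆ = ⁅φ^[j] x, φ^[j] y⁆ := fun j => by
    induction j with
    | zero => intros; rfl
    | succ j ih => intro x y; simp only [Function.iterate_succ_apply', ih, hφ]
  let t : L →+ A ⊗[ℤ] L := (TensorProduct.mk ℤ A L 1).toAddMonoidHom
  have := hkk_aux (K := A ⊗[ℤ] L) χ χ0 χa χs (fun j => (Φ ^ j.val).baseChange A) (fun x => by simp)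
    (fun a b x => by
      rw [ZMod.val_add, ← pow_eq_pow_mod _ hΦp, pow_add, LinearMap.baseChange_mul]; rfl)
    (fun a x y => by
      induction x with
      | zero => simp
      | add u v hu hv => simp only [add_lie, map_add, hu, hv]
      | tmul s u =>
        induction y with
        | zero => simp
        | add u v hu hv => simp only [lie_add, map_add, hu, hv]
        | tmul t v => simp [hΦ, hl]) N
    (fun x => by
      induction x with
      | zero => simp
      | add u v hu hv => simp only [map_add, Finset.sum_add_distrib, smul_add, hu, hv, add_zero]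
      | tmul s u =>
        simp only [LinearMap.baseChange_tmul, hΦ]
        rw [← TensorProduct.tmul_sum, ← TensorProduct.tmul_smul, sum_zmod (fun j => φ^[j] u), hN,
          TensorProduct.tmul_zero])
    (map_mem_lc t (fun x y => by simp [t]) _ hy)
  have := congrArg (fun z => TensorProduct.lid ℤ L (r.rTensor L z)) this
  simpa [t, r1] using this

end Cfsg.Agent.LieM
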