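import Cfsg.Agent.LieM.SuffD

/-! Glauberman's theorem: if `ZJ(S)` does not control strong fusion (`p` odd) then `F(p)` is involved in `N(ZJ(S))` and
some subgroup of order `p` of `ZJ(S)` has full automizer in `N(ZJ(S))` (`suff_main`, `suff_relIndex`). -/

set_option autoImplicit false
universe u

namespace Cfsg.Agent.LieM
open Subgroup Cfsg.Agent.BG
open scoped commutatorElement

variable {p : ℕ} [Fact p.Prime]

section
variable {G : Type*} [Group G] [Finite G] {H Z S K U : Subgroup G}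

theorem Wt.comap {G' : Type*} [Group G'] {f : G →* G'} (hf : f.ker ≤ Z) {n : ℕ} (h : Wt (H.map f) (Z.map f) n) :
    Wt H Z n := by
  obtain ⟨_, ⟨h, hh, rfl⟩, Z₂, h1, W, h2, h3, h4⟩ := h
  refine ⟨h, hh, Z₂.comap f, (comap_mono h1).trans (comap_map_eq_self hf).le, W.comap f, mem_norm_of_cj_le fun y hy => ?_,
    fun hle => h3 fun w hw => ?_, fun w hw => by simpa using h4 _ hw⟩
  · obtain ⟨x, hx, rfl⟩ := mem_cj'.1 hy
    simpa using conj_mem_of_norm h2 hx
  · obtain ⟨x, -, rfl⟩ := h1 hw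
    exact hle hw

theorem Wt.elt (hZ : IsPGroup p Z) (hc : IsMulCommutative Z) {n : ℕ} (h : Wt H Z n) :
    ∃ h ∈ H, ∃ c ∈ Z, orderOf c = p ∧ h * c * h⁻¹ = c ^ n := by
  obtain ⟨h, hh, Z₂, h1, W, h2, h3, h4⟩ := h
  let φ : Z₂ → Z₂ := fun w => ⟨h * w * h⁻¹ * (w.1 ^ n)⁻¹,
    Z₂.mul_mem (conj_mem_of_norm h2 w.2) (Z₂.inv_mem (Z₂.pow_mem w.2 n))⟩
  have hi : ¬ Function.Injective φ := fun hi => h3 fun w hw => by
    obtain ⟨v, hv⟩ := Finite.surjective_of_injective hi ⟨w, hw⟩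
    exact (congrArg Subtype.val hv).subst (motive := (· ∈ W)) (h4 v v.2)
  obtain ⟨v, w, e, hne⟩ := Function.not_injective_iff.1 hi
  have e : h * v * h⁻¹ * (v.1 ^ n)⁻¹ = h * w * h⁻¹ * (w.1 ^ n)⁻¹ := congrArg Subtype.val e
  have cm : Commute w.1⁻¹ v.1 := hc.comm (h1 (inv_mem w.2)) (h1 v.2)
  have e1 : h * (w.1⁻¹ * v) * h⁻¹ = (w.1⁻¹ * v) ^ n := by
    rw [cm.mul_pow, inv_pow, show h * (w.1⁻¹ * v) * h⁻¹ = (h * w * h⁻¹)⁻¹ * (h * v * h⁻¹ * (v.1 ^ n)⁻¹) * v.1 ^ n by group,
      e]; group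
  have m : w.1⁻¹ * v ∈ Z := h1 (mul_mem (inv_mem w.2) v.2)
  obtain ⟨c, ⟨k, rfl⟩, oc⟩ := Cauchy Fact.out (pgroup_pdiv (hZ.sub (zpowers_le.2 m))
    (by simpa [inv_mul_eq_one] using hne.symm))
  exact ⟨h, hh, _, zpow_mem m k, oc, by
    show h * _ ^ k * h⁻¹ = (_ ^ k) ^ n
    rw [← conj_zpow, e1, ← zpow_natCast, ← zpow_natCast, ← zpow_mul, ← zpow_mul, mul_comm]⟩

theorem suff_relIndex {h c : G} (hh : h ∈ H) (oc : orderOf c = p) {a : (ZMod p)ˣ} (ha : ∀ b, b ∈ Submonoid.powers a)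
    (e : h * c * h⁻¹ = c ^ (a : ZMod p).val) : (H ⊓ C[zpowers c]).relIndex (H ⊓ N[zpowers c]) = p - 1 := by
  let f := (zpowers c).normalizerMonoidHom.comp (inclusion (inf_le_right : H ⊓ N[zpowers c] ≤ N[zpowers c]))
  have hk : f.ker = (H ⊓ C[zpowers c]).subgroupOf (H ⊓ N[zpowers c]) := by
    rw [← MonoidHom.comap_ker, normalizerMonoidHom_ker]
    ext x; exact ⟨fun hx => ⟨x.2.1, hx⟩, fun hx => hx.2⟩
  have hn : h ∈ N[zpowers c] := mem_norm_of_cj_le (by rw [cj_zpowers, e]; exact zpowers_le.2 (pow_mem (mem_zpowers c) _))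
  rw [relIndex, ← hk, index_ker]
  refine Nat.dvd_antisymm ?_ ?_
  · refine (card_subgroup_dvd_card _).trans ?_
    rw [IsCyclic.card_mulAut, Nat.card_zpowers, oc, Nat.totient_prime Fact.out]
  · refine dvd_trans ?_ (orderOf_dvd_cardG (A := f.range) ⟨⟨h, hh, hn⟩, rfl⟩)
    have oa : orderOf a = p - 1 := by
      rw [orderOf_eq_card_of_forall_mem_powers ha, Nat.card_eq_fintype_card, ZMod.card_units]
    have pw : ∀ m : ℕ, h ^ m * c * (h ^ m)⁻¹ = c ^ (a : ZMod p).val ^ m := fun m => by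
      induction m with
      | zero => simp
      | succ m ih =>
        rw [show h ^ (m + 1) * c * (h ^ (m + 1))⁻¹ = h ^ m * (h * c * h⁻¹) * (h ^ m)⁻¹ by group, e, ← conj_pow, ih,
          ← pow_mul, pow_succ]
    rw [← oa]
    refine orderOf_dvd_of_pow_eq_one (Units.ext ?_)
    have h1 := pow_orderOf_eq_one (f ⟨h, hh, hn⟩)
    rw [← map_pow, ← MonoidHom.mem_ker, hk] at h1
    have h2 := pw (orderOf (f ⟨h, hh, hn⟩))
    rw [conj_eq_of_cent (g := h ^ _) h1.2 (mem_zpowers c)] at h2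
    have h3 := (ZMod.natCast_eq_natCast_iff _ _ _).2 (oc ▸ pow_eq_pow_iff_modEq.1 ((pow_one c).trans h2))
    simpa using h3.symm

theorem JA_eq_of_pgroup (hS : SylowIn p S ⊤) (hK : IsPGroup p K) (h : thompsonSubgroupAOf S ≤ K) :
    thompsonSubgroupAOf K = thompsonSubgroupAOf S := by
  obtain ⟨g, -, hg⟩ := Sylow_Jsub hS le_top hK
  have e : cj g (thompsonSubgroupAOf S) = thompsonSubgroupAOf S := eq_of_card_le
    (cj_le_iff.2 (PLocal.JA_le_iff.2 fun A hA => cj_le_iff.1 (PLocal.le_JA (PLocal.mem_maxFam_of_card hA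
      ((cj_mono g ((PLocal.le_JA hA).trans h)).trans hg) (abelian_cj g hA.2.1) (card_cj g A).ge)))) (card_cj _ _).ge
  rw [← cj_inj (g := g), e, show cj g (thompsonSubgroupAOf K) = _ from PLocal.cj_JA g K]
  exact PLocal.JA_eq_of_le hg (e ▸ cj_mono g h)

theorem quad_of_quot (hp : p ≠ 2) (hS : SylowIn p S ⊤) {G' : Type*} [Group G'] {f : G →* G'} (hf : Function.Surjective f)
    (hk : f.ker = (centerThompsonAOf S).normalCore) {z : G'} (hz : z ∈ (centerThompsonAOf S).map f) (z1 : z ≠ 1)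
    {V : Subgroup G'} (eV : V = Gold.ncl ⊤ (zpowers z)) (hV : V ≤ S.map f) (hc : IsMulCommutative V) :
    ∃ u ∈ S.map f, u ∉ C[V] ∧ ⁅⁅V, zpowers u⁆, zpowers u⁆ = ⊥ := by
  have kZ : f.ker ≤ centerThompsonAOf S := hk ▸ normalCore_le _
  haveI : V.Normal := (eV ▸ Gold.ncl_normal le_top :  V ⊴ ⊤).normal
  haveI : C[V].Normal := normal_centralizer
  have zV : z ∈ V := eV ▸ Gold.le_ncl _ _ (mem_zpowers z)
  have hB : V.comap f ≤ S := (comap_mono hV).trans (comap_map_eq_self (kZ.trans (PLocal.ZJA_le S))).le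
  have hB' : ⁅V.comap f, V.comap f⁆ ≤ f.ker := by
    rw [← Subgroup.map_eq_bot_iff, map_commutator, map_comap_eq_self_of_surjective hf, der1_eq_bot.2 hc]
  obtain ⟨A, hA, -, h1, h2⟩ := PLocal.abMax_replacement hp hS.pg le_rfl (normG S) hB (norm_of_normal _ _) (by
    by_contra! h
    have h1 : ∀ U ∈ PLocal.abMax S, V.comap f ≤ U := fun U hU =>
      h U hU (hB'.trans (kZ.trans (PLocal.ZJA_le_of_mem_abMax hU)))
    have h2 : V.comap f ≤ centerThompsonAOf S := by
      rw [← PLocal.inf_centralizer_JA_eq]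
      exact le_inf hB (centsC.1 (PLocal.JA_le_iff.2 fun U hU => centsS (h1 U hU) hU.2.1.cent))
    obtain ⟨y, rfl⟩ := hf z
    exact z1 ((hk ▸ normal_le_normalCore.2 h2 :) zV))
  have h3 : ¬ A ≤ C[V].comap f := fun h3 => h1 (by
    have hQ := Sylow_setI_normal (normal_top (C[V].comap f)) hS
    have hA' := PLocal.mem_maxFam_of_le hA inf_le_right (le_inf h3 hA.1)
    have hX : centerThompsonAOf S ≤ centerThompsonAOf (C[V].comap f ⊓ S) :=
      le_inf ((PLocal.ZJA_le_of_mem_abMax hA).trans (PLocal.le_JA hA'))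
        (centsS (PLocal.JA_le_JA hA inf_le_right (le_inf h3 hA.1)) inf_le_right)
    refine le_trans ?_ (PLocal.ZJA_le_of_mem_abMax hA')
    rw [← comap_map_eq_self (kZ.trans hX)]
    refine comap_mono (eV.le.trans (Gold.ncl_le fun g _ => ?_))
    obtain ⟨g, rfl⟩ := hf g
    obtain ⟨n, hn, c, hc, rfl⟩ := (mem_sup_normr (norm_of_normal _ _)).1
      (((sup_comm _ _).trans (Frattini_arg (normal_top _) hQ)).ge (mem_top g))
    rw [map_mul, cj_mul, cj_of_cent (centS (zpowers_le.2 zV) hc)]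
    exact cj_le_of_norm (norms_map f (PLocal.normalizer_le_normalizer_ZJA _) (mem_map_of_mem f hn.2))
      (zpowers_le.2 (map_mono hX hz)))
  obtain ⟨u, hu, hu'⟩ := SetLike.not_le_iff_exists.1 h3
  refine ⟨f u, mem_map_of_mem f (hA.1 hu), hu', ?_⟩
  rw [← map_comap_eq_self_of_surjective hf V, ← MonoidHom.map_zpowers, ← map_commutator, ← map_commutator,
    eq_bot_iff.2 ((commgSS ((commgS _ (zpowers_le.2 hu)).trans (commg_subr h2)) (zpowers_le.2 hu)).trans
      (der1_eq_bot.2 hA.2.1).le), Subgroup.map_bot]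

end

theorem suff_main (hp : p ≠ 2) {a : (ZMod p)ˣ} (ha : ∀ b, b ∈ Submonoid.powers a) (n : ℕ) :
    ∀ (G : Type u) [Group G] [Finite G], Nat.card G = n → ∀ S : Subgroup G, SylowIn p S ⊤ →
      ¬ Good N[centerThompsonAOf S] ⊤ S → PLocal.Involves N[centerThompsonAOf S] (fOver (ZMod p)) ∧
        ∃ h ∈ N[centerThompsonAOf S], ∃ c ∈ centerThompsonAOf S, orderOf c = p ∧ h * c * h⁻¹ = c ^ (a : ZMod p).val := by
  induction n using Nat.strong_induction_on with | _ n ih => ?_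
  intro G _ _ hn S hS bad
  by_contra hcon
  set Z := centerThompsonAOf S with eZ
  have ZS : Z ≤ S := PLocal.ZJA_le S
  have hI : ∀ K : Subgroup G, K ≠ ⊤ → thompsonSubgroupAOf S ≤ K → Good N[Z] K (S ⊓ K) := fun K hK hJ => by
    obtain ⟨T, hT, h1⟩ := Sylow_superset (inf_le_right : S ⊓ K ≤ K) (hS.pg.sub inf_le_left)
    obtain ⟨T, rfl⟩ := lift_le hT.le
    have inj := K.subtype_injective
    have e : (centerThompsonAOf T).map K.subtype = Z := by
      rw [PLocal.map_ZJA (PLocal.inf_ker_of_injective inj _), eZ, centerThompsonAOf, centerThompsonAOf,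
        JA_eq_of_pgroup hS hT.pg ((le_inf (PLocal.JA_le S) hJ).trans h1)]
    have e' : N[centerThompsonAOf T].map K.subtype ≤ N[Z] := e ▸ norms_map _ le_rfl
    by_cases h : Good N[centerThompsonAOf T] ⊤ T
    · have := h.map (f := K.subtype) (by simp)
      rw [map_subtype_top] at this
      intro k hk X hX hc
      exact (this k hk X (hX.trans h1) (hc.trans h1)).imp fun _ h => ⟨e' h.1, h.2⟩
    obtain ⟨h2, h, h3, c, h4, h5, h6⟩ := ih _ (hn ▸ (proper_card (lt_top_iff_ne_top.2 hK)).trans_eq card_top) K rfl T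
      (pHall_top.2 (pHall_map_subtype.1 hT)) h
    exact absurd ⟨(h2.map_of_injective inj).mono e', h, e' (mem_map_of_mem _ h3), c, e ▸ mem_map_of_mem _ h4,
      (orderOf_injective K.subtype inj c).trans h5, by simpa using congrArg K.subtype h6⟩ hcon
  let f := QuotientGroup.mk' Z.normalCore
  have hf : Function.Surjective f := QuotientGroup.mk'_surjective _
  have hk : f.ker = Z.normalCore := QuotientGroup.ker_mk' _
  have kZ : f.ker ≤ Z := hk.le.trans (normalCore_le _)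
  have nS : N[S] ≤ N[Z] := PLocal.normalizer_le_normalizer_ZJA S
  have nf : ∀ X : Subgroup (G ⧸ Z.normalCore), N[X] = N[X.comap f].map f := fun X => by
    rw [← comap_normalizer_eq_of_surjective X hf, map_comap_eq_self_of_surjective hf]
  have top : (⊤ : Subgroup G).map f = ⊤ := map_top_of_surjective f hf
  obtain ⟨h1, h2⟩ := suff_core hp (top ▸ pHall_map f hS) (map_mono ZS) (map_mono ((normG S).trans nS))
    (norms_map f le_rfl) (fun e => bad (.of_le (by
      rw [(Subgroup.map_eq_bot_iff _).1 e |>.antisymm kZ]; exact norm_of_normal _ _)))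
    (by rw [nf, comap_map_eq_self (kZ.trans ZS)]; exact map_mono nS) (fun U hU h0 => by
      have hU' : U.comap f ≤ Z := (comap_mono hU).trans (comap_map_eq_self kZ).le
      have := (hI N[U.comap f] (fun e => h0 (by
        haveI := normalizer_eq_top_iff.1 e
        rw [← map_comap_eq_self_of_surjective hf U, Subgroup.map_eq_bot_iff, hk]
        exact normal_le_normalCore.2 hU')) (cents_norm (centsC.1 (hU'.trans inf_le_right)))).map
          (f := f) (le_inf (kZ.trans ZS) ((f.ker_le_comap U).trans (normG _)))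
      rwa [← comap_normalizer_eq_of_surjective U hf, map_inf_comap, map_comap_eq_self_of_surjective hf] at this)
    (fun K h1 h2 => by
      have := (hI (K.comap f) (fun e => h2 (by rw [← map_comap_eq_self_of_surjective hf K, e, top]))
        ((PLocal.JA_le S).trans (map_le_iff_le_comap.1 h1))).map (f := f) (le_inf (kZ.trans ZS) (f.ker_le_comap K))
      rwa [map_inf_comap, map_comap_eq_self_of_surjective hf, inf_eq_left.2 h1] at this)
    (fun z hz z1 V eV hV hV' => quad_of_quot hp hS hf hk hz.1 z1 eV hV hV'.1) (fun h => bad fun k _ X hX hc => by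
      obtain ⟨S, rfl⟩ := sylow_of_sylowIn_top hS
      refine Gold.control S (PLocal.isMulCommutative_ZJA _) ⟨ZS, fun x hx g hg => ?_⟩ hX hc
      obtain ⟨b, hb, e⟩ := h (f g) (mem_top _) (zpowers (f x)) (zpowers_le.2 (mem_map_of_mem f (ZS hx)))
        (by rw [cj_zpowers]; exact zpowers_le.2 ⟨_, hg, by simp⟩)
      refine (comap_map_eq_self kZ).le (mem_comap.2 ?_)
      rw [map_mul, map_mul, map_inv, e _ (mem_zpowers _)]
      exact conj_mem_of_norm (norms_map f le_rfl hb) (mem_map_of_mem f hx)) ha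
  exact hcon ⟨h1.of_map, (h2.comap kZ).elt (hS.pg.sub ZS) (PLocal.isMulCommutative_ZJA _)⟩

end Cfsg.Agent.LieM
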