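import Cfsg.Agent.PLocal.Qd
import Cfsg.Agent.BG.S2Abelem
import Mathlib.RingTheory.Ideal.Quotient.Operations
import Mathlib.RingTheory.IntegralDomain

/-! Two quadratic endomorphisms `X, Y` and a vector `z` killed by `X`: either `θ = XY + YX` is nilpotent on `z`
(`quad_nil`) or the module generated by `z` has a natural `SL₂(F)`-quotient (`quad_nat`). -/

set_option autoImplicit false

namespace Cfsg.Agent.LieM
open Polynomial

variable {p : ℕ} {W : Type*} [AddCommGroup W] [Module (ZMod p) W] {X' Y' : Module.End (ZMod p) W} {z : W}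

/-- The vector `f(θ) z + g(θ) Y z`. -/
noncomputable def qv (X' Y' : Module.End (ZMod p) W) (z : W) (f g : (ZMod p)[X]) : W :=
  aeval (X' * Y' + Y' * X') f z + aeval (X' * Y' + Y' * X') g (Y' z)

theorem commute_aeval {θ A : Module.End (ZMod p) W} (h : Commute A θ) (f : (ZMod p)[X]) (w : W) :
    A (aeval θ f w) = aeval θ f (A w) := by
  have : Commute A (aeval θ f) := by
    induction f using Polynomial.induction_on' with
    | add f g hf hg => rw [map_add]; exact hf.add_right hg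
    | monomial n a =>
      rw [aeval_monomial]
      exact Commute.mul_right (Algebra.commutes a A).symm (h.pow_right n)
  exact LinearMap.congr_fun this.eq w

theorem qv_add (f g f' g' : (ZMod p)[X]) : qv X' Y' z f g + qv X' Y' z f' g' = qv X' Y' z (f + f') (g + g') := by
  simp only [qv, map_add, LinearMap.add_apply]; abel

theorem qv_neg (f g : (ZMod p)[X]) : -qv X' Y' z f g = qv X' Y' z (-f) (-g) := by
  simp only [qv, map_neg, LinearMap.neg_apply]; abel

theorem qv_zero : qv X' Y' z 0 0 = 0 := by simp [qv]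

theorem qv_one : qv X' Y' z 1 0 = z := by simp [qv]

theorem X_qv (hX : X' * X' = 0) (hz : X' z = 0) (f g : (ZMod p)[X]) :
    X' (qv X' Y' z f g) = qv X' Y' z (g * X) 0 := by
  have hc : Commute X' (X' * Y' + Y' * X') := by
    show X' * _ = _ * X'
    rw [mul_add, add_mul, ← mul_assoc, hX, zero_mul, zero_add, mul_assoc Y', hX, mul_zero, add_zero, mul_assoc]
  simp [qv, commute_aeval hc, hz]

theorem Y_qv (hY : Y' * Y' = 0) (f g : (ZMod p)[X]) : Y' (qv X' Y' z f g) = qv X' Y' z 0 f := by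
  have hc : Commute Y' (X' * Y' + Y' * X') := by
    show Y' * _ = _ * Y'
    rw [mul_add, add_mul, ← mul_assoc Y' Y', hY, zero_mul, add_zero, mul_assoc X', hY, mul_zero, zero_add, mul_assoc]
  have : Y' (Y' z) = 0 := LinearMap.congr_fun hY z
  simp [qv, commute_aeval hc, this]

theorem quad_nil [Fact p.Prime] {H : Type*} [Group H] (ρ : H →* Module.End (ZMod p) W) {a b : H}
    (ha : ρ a = 1 + X') (hb : ρ b = 1 + Y') (hX : X' * X' = 0) (hY : Y' * Y' = 0) (hz : X' z = 0) {n : ℕ}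
    (hn : qv X' Y' z (X ^ n) 0 = 0) {g : H} (hg : g ∈ Subgroup.closure {a, b}) : ∃ k, ρ (g ^ p ^ k) z = z := by
  let c : ℕ → W → Prop := fun i w => ∃ f g, X ^ ((i + 1) / 2) ∣ f ∧ X ^ (i / 2) ∣ g ∧ w = qv X' Y' z f g
  have c_add : ∀ i w w', c i w → c i w' → c i (w + w') := by
    rintro i _ _ ⟨f, g, h1, h2, rfl⟩ ⟨f', g', h1', h2', rfl⟩
    exact ⟨_, _, h1.add h1', h2.add h2', qv_add _ _ _ _⟩
  have c_neg : ∀ i w, c i w → c i (-w) := by
    rintro i _ ⟨f, g, h1, h2, rfl⟩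
    exact ⟨_, _, h1.neg_right, h2.neg_right, qv_neg _ _⟩
  have c_mono : ∀ i w, c (i + 1) w → c i w := by
    rintro i _ ⟨f, g, h1, h2, rfl⟩
    exact ⟨_, _, (pow_dvd_pow _ (by omega)).trans h1, (pow_dvd_pow _ (by omega)).trans h2, rfl⟩
  have c_X : ∀ i w, c i w → c (i + 1) (X' w) := by
    rintro i _ ⟨f, g, h1, h2, rfl⟩
    refine ⟨_, _, ?_, dvd_zero _, X_qv hX hz _ _⟩
    rw [show (i + 1 + 1) / 2 = i / 2 + 1 by omega, pow_succ]
    exact mul_dvd_mul_right h2 _
  have c_Y : ∀ i w, c i w → c (i + 1) (Y' w) := by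
    rintro i _ ⟨f, g, h1, h2, rfl⟩
    exact ⟨_, _, dvd_zero _, h1, Y_qv hY _ _⟩
  have inv : ∀ {u : H} {A : Module.End (ZMod p) W}, ρ u = 1 + A → A * A = 0 → ρ u⁻¹ = 1 + -A := by
    intro u A h1 h2
    have : ρ u * (1 + -A) = 1 := by rw [h1]; noncomm_ring [h2]
    calc ρ u⁻¹ = ρ u⁻¹ * (ρ u * (1 + -A)) := by rw [this, mul_one]
      _ = 1 + -A := by rw [← mul_assoc, ← map_mul, inv_mul_cancel, map_one, one_mul]
  have key : ∀ i w, c i w → c (i + 1) ((ρ g - 1) w) := by
    induction hg using Subgroup.closure_induction'' with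
    | mem u hu =>
      rcases hu with rfl | rfl
      · simpa [ha] using c_X
      · simpa [hb] using c_Y
    | inv_mem u hu =>
      rcases hu with rfl | rfl
      · simpa [inv ha hX] using fun i w h => c_neg _ _ (c_X i w h)
      · simpa [inv hb hY] using fun i w h => c_neg _ _ (c_Y i w h)
    | one => exact fun i w _ => ⟨0, 0, dvd_zero _, dvd_zero _, by simp [qv]⟩
    | mul u v _ _ hu hv =>
      intro i w h
      have h1 := hv i w h
      have h2 := hu i _ (c_add _ _ _ h (c_mono _ _ h1))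
      have := c_add _ _ _ h2 h1
      simpa [map_mul] using this
  have pw : ∀ m, c m (((ρ g - 1) ^ m) z) := by
    intro m
    induction m with
    | zero => exact ⟨1, 0, by simp, by simp, by simp [qv_one]⟩
    | succ m ih => rw [pow_succ', Module.End.mul_apply]; exact key _ _ ih
  have hlt : 2 * n < p ^ (2 * n) := Nat.lt_pow_self (Fact.out : p.Prime).one_lt
  refine ⟨2 * n, ?_⟩
  obtain ⟨f, g', ⟨f, rfl⟩, ⟨g', rfl⟩, e⟩ := pw (2 * n)
  rw [show (2 * n + 1) / 2 = n by omega, show 2 * n / 2 = n by omega] at e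
  have h0 : aeval (X' * Y' + Y' * X') (X ^ n : (ZMod p)[X]) z = 0 := by simpa [qv] using hn
  have h1 : aeval (X' * Y' + Y' * X') (X ^ n : (ZMod p)[X]) (Y' z) = 0 := by
    have := Y_qv (X' := X') (z := z) hY (X ^ n) 0
    rw [hn, map_zero] at this
    simpa [qv] using this.symm
  have e0 : ((ρ g - 1) ^ (2 * n)) z = 0 := by
    rw [e, qv, mul_comm _ f, mul_comm _ g', map_mul, map_mul, Module.End.mul_apply, Module.End.mul_apply, h0, h1]
    simp
  rcases subsingleton_or_nontrivial W with hW | hW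
  · exact Subsingleton.elim _ _
  haveI : CharP (Module.End (ZMod p) W) p := charP_of_injective_algebraMap (algebraMap (ZMod p) _).injective p
  have e1 : ((ρ g - 1) ^ p ^ (2 * n)) z = 0 := by
    obtain ⟨m, hm⟩ := Nat.exists_eq_add_of_le' hlt.le
    rw [hm, pow_add, Module.End.mul_apply, e0, map_zero]
  rw [sub_pow_char_pow_of_commute _ _ (Commute.one_right _), one_pow, LinearMap.sub_apply, sub_eq_zero] at e1
  rw [map_pow, e1]; rfl

theorem quad_nat [Fact p.Prime] [Finite W] (hX : X' * X' = 0) (hY : Y' * Y' = 0) (hz : X' z = 0)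
    (hn : ∀ n, qv X' Y' z (X ^ n) 0 ≠ 0) :
    ∃ (F : Type) (_ : Field F) (_ : Finite F) (_ : CharP F p) (l : F) (R : AddSubgroup (W × (Fin 2 → F))), l ≠ 0 ∧
      (∀ y, ∃ w, (w, y) ∈ R) ∧ (∀ y, (0, y) ∈ R → y = 0) ∧ (z, ![1, 0]) ∈ R ∧
      (∀ w y, (w, y) ∈ R → (w + X' w, ![y 0 + l * y 1, y 1]) ∈ R) ∧
      (∀ w y, (w, y) ∈ R → (w + Y' w, ![y 0, y 0 + y 1]) ∈ R) := by
  let I : Ideal (ZMod p)[X] :=
    { carrier := {f | qv X' Y' z f 0 = 0}
      add_mem' := fun {f g} hf hg => by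
        have := qv_add (X' := X') (Y' := Y') (z := z) f 0 g 0
        rw [hf, hg, add_zero, add_zero] at this
        exact this.symm
      zero_mem' := qv_zero
      smul_mem' := fun c f hf => by
        have : aeval (X' * Y' + Y' * X') f z = 0 := by simpa [qv] using hf
        simp [qv, this] }
  have h1 : (X : (ZMod p)[X]) ∉ I.radical := fun ⟨n, h⟩ => hn n h
  rw [Ideal.radical_eq_sInf, Ideal.mem_sInf] at h1
  push Not at h1
  obtain ⟨P, ⟨hIP, hP⟩, hXP⟩ := h1
  haveI : Finite ((ZMod p)[X] ⧸ P) := by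
    refine Finite.of_surjective (fun w : Set.range fun f => qv X' Y' z f 0 => Ideal.Quotient.mk P w.2.choose) fun q => ?_
    obtain ⟨f, rfl⟩ := Ideal.Quotient.mk_surjective q
    refine ⟨⟨_, f, rfl⟩, Ideal.Quotient.eq.2 (hIP ?_)⟩
    have e := (⟨f, rfl⟩ : ∃ g, qv X' Y' z g 0 = qv X' Y' z f 0).choose_spec
    show qv X' Y' z _ 0 = 0
    have := qv_add (X' := X') (Y' := Y') (z := z) (⟨f, rfl⟩ : ∃ g, qv X' Y' z g 0 = qv X' Y' z f 0).choose 0 (-f) (-0)
    rw [← qv_neg, e, add_neg_cancel, neg_zero, add_zero, ← sub_eq_add_neg] at this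
    exact this.symm
  letI : Field ((ZMod p)[X] ⧸ P) := (Finite.isField_of_domain _).toField
  let R : AddSubgroup (W × (Fin 2 → (ZMod p)[X] ⧸ P)) :=
    { carrier := {q | ∃ f g, q = (qv X' Y' z f g, ![Ideal.Quotient.mk P f, Ideal.Quotient.mk P g])}
      add_mem' := by
        rintro _ _ ⟨f, g, rfl⟩ ⟨f', g', rfl⟩
        exact ⟨f + f', g + g', by simp [qv_add]⟩
      zero_mem' := ⟨0, 0, Prod.ext qv_zero.symm (by ext i; fin_cases i <;> simp)⟩
      neg_mem' := by
        rintro _ ⟨f, g, rfl⟩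
        exact ⟨-f, -g, by simp [qv_neg]⟩ }
  refine ⟨(ZMod p)[X] ⧸ P, inferInstance, inferInstance,
    charP_of_injective_algebraMap (algebraMap (ZMod p) _).injective p, Ideal.Quotient.mk P X, R,
    fun h => hXP (Ideal.Quotient.eq_zero_iff_mem.1 h), fun y => ?_, ?_, ⟨1, 0, by simp [qv_one]⟩, ?_, ?_⟩
  · obtain ⟨f, hf⟩ := Ideal.Quotient.mk_surjective (y 0)
    obtain ⟨g, hg⟩ := Ideal.Quotient.mk_surjective (y 1)
    refine ⟨_, f, g, Prod.ext rfl ?_⟩
    ext i; fin_cases i <;> simp [hf, hg]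
  · rintro y ⟨f, g, h⟩
    obtain ⟨h2, rfl⟩ := Prod.ext_iff.1 h
    have h2 : qv X' Y' z f g = 0 := h2.symm
    have e1 : g * X ∈ I := by
      show qv _ _ _ _ _ = 0
      rw [← X_qv hX hz f, h2, map_zero]
    have e2 : f * X ∈ I := by
      show qv _ _ _ _ _ = 0
      rw [← X_qv hX hz 0, ← Y_qv hY f g, h2, map_zero, map_zero]
    have e3 := Ideal.Quotient.eq_zero_iff_mem.2 ((hP.mem_or_mem (hIP e1)).resolve_right hXP)
    have e4 := Ideal.Quotient.eq_zero_iff_mem.2 ((hP.mem_or_mem (hIP e2)).resolve_right hXP)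
    ext i; fin_cases i <;> simp [e3, e4]
  · rintro w y ⟨f, g, h⟩
    obtain ⟨rfl, rfl⟩ := Prod.ext_iff.1 h
    refine ⟨f + g * X, g, ?_⟩
    simp [X_qv hX hz, qv_add, mul_comm]
  · rintro w y ⟨f, g, h⟩
    obtain ⟨rfl, rfl⟩ := Prod.ext_iff.1 h
    refine ⟨f, f + g, ?_⟩
    simp [Y_qv hY, qv_add, add_comm]

end Cfsg.Agent.LieM
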