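import Cfsg.Agent.LieM.SuffA
import Cfsg.Agent.BG.Base6

/-! Natural `SL₂`-sections of an elementary abelian group `V` as relations `Rel V R`, the group `Lam R` of compatible
pairs, `exists_borel_pair` (a quadratic pair `x, y` acting nontrivially on `z` yields a torus element `d` normalising
a `p`-subgroup through `x`), `involves_fOver`, and the weight statement `Wt`. -/

set_option autoImplicit false

namespace Cfsg.Agent.LieM
open Subgroup Cfsg.Agent.BG Matrix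
open Cfsg.Agent.PLocal (SL2 qdM qdM_mul qdM_one qdM_inj qdM_inv tU tL sl2_ext sl2_mul sl2_det sl2_inv sl2_one)
open scoped MatrixGroups commutatorElement

variable {G : Type*} [Group G] {p : ℕ} {K : Type*} [Field K]

/-- `R` identifies a section of `V` with the translation group `K²`. -/
structure Rel (V : Subgroup G) (R : Subgroup (G × SL(3, K))) : Prop where
  mem : ∀ q ∈ R, q.1 ∈ V ∧ ∃ y, q.2 = qdM y 1
  surj : ∀ y, ∃ w, (w, qdM y 1) ∈ R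
  func : ∀ y, ((1 : G), qdM y 1) ∈ R → y = 0

/-- The linear part of `Qd`. -/
def lin (K : Type*) [Field K] : SL2 K →* SL(3, K) where
  toFun := qdM 0
  map_one' := qdM_one
  map_mul' a b := by rw [qdM_mul]; simp

/-- Pairs acting compatibly on both sides of `R`. -/
def Lam (R : Subgroup (G × SL(3, K))) : Subgroup (G × SL2 K) := N[R].comap ((MonoidHom.id G).prodMap (lin K))

theorem tr_mul (y y' : Fin 2 → K) : qdM y 1 * qdM y' 1 = qdM (y + y') 1 := by rw [qdM_mul]; simp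

theorem tr_inv (y : Fin 2 → K) : (qdM y 1)⁻¹ = qdM (-y) 1 := by rw [qdM_inv]; simp

theorem lin_tr (M : SL2 K) (y : Fin 2 → K) : qdM 0 M * qdM y 1 * (qdM 0 M)⁻¹ = qdM (M.1 *ᵥ y) 1 := by
  rw [mul_inv_eq_iff_eq_mul, qdM_mul, qdM_mul]; simp

variable {V : Subgroup G} {R : Subgroup (G × SL(3, K))} {g w x y z d : G} {M : SL2 K}

theorem Lam.act (h : (g, M) ∈ Lam R) {v : Fin 2 → K} (hw : (w, qdM v 1) ∈ R) :
    (g * w * g⁻¹, qdM (M.1 *ᵥ v) 1) ∈ R := by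
  rw [← lin_tr]
  exact conj_mem_of_norm (g := (g, qdM 0 M)) h hw

theorem Rel.mem_Lam [Finite G] [Finite K] (hR : Rel V R)
    (h : ∀ w v, (w, qdM v 1) ∈ R → (g * w * g⁻¹, qdM (M.1 *ᵥ v) 1) ∈ R) : (g, M) ∈ Lam R := by
  refine mem_norm_of_cj_le fun q hq => ?_
  obtain ⟨⟨w, m⟩, hq', rfl⟩ := mem_cj'.1 hq
  obtain ⟨-, v, hv⟩ := hR.mem _ hq'
  obtain rfl : m = qdM v 1 := hv
  have := h w v hq'
  rwa [← lin_tr] at this

theorem Rel.sub (hR : Rel V R) {u v : Fin 2 → K} (h : (w, qdM u 1) ∈ R) (h' : (w, qdM v 1) ∈ R) : u = v := by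
  have := R.mul_mem h (R.inv_mem h')
  rw [Prod.inv_mk, Prod.mk_mul_mk, mul_inv_cancel, tr_inv, tr_mul] at this
  exact add_neg_eq_zero.1 (hR.func _ this)

theorem Rel.eq_one (hR : Rel V R) (h : (g, M) ∈ Lam R) (hg : g ∈ C[V]) : M = 1 := by
  have key : ∀ v, M.1 *ᵥ v = v := fun v => by
    obtain ⟨w, hw⟩ := hR.surj v
    have := Lam.act h hw
    rw [conj_eq_of_cent hg (hR.mem _ hw).1] at this
    exact hR.sub this hw
  have h0 := key ![1, 0]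
  have h1 := key ![0, 1]
  obtain ⟨o1, o2, o3, o4⟩ := sl2_one (K := K)
  exact sl2_ext (by simpa [o1, mulVec, dotProduct] using congrFun h0 0)
    (by simpa [o2, mulVec, dotProduct] using congrFun h1 0)
    (by simpa [o3, mulVec, dotProduct] using congrFun h0 1) (by simpa [o4, mulVec, dotProduct] using congrFun h1 1)

theorem Rel.congr [Finite G] [Finite K] (hR : Rel V R) (h : (d, M) ∈ Lam R)
    (e : ∀ w ∈ V, d * w * d⁻¹ = g * w * g⁻¹) : (g, M) ∈ Lam R :=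
  hR.mem_Lam fun w v hw => e w (hR.mem _ hw).1 ▸ Lam.act h hw

/-- Upper triangular matrices. -/
def Bor (K : Type*) [Field K] : Subgroup (SL2 K) where
  carrier := {g | g.1 1 0 = 0}
  one_mem' := sl2_one.2.2.1
  mul_mem' := fun {a b} (ha : a.1 1 0 = 0) (hb : b.1 1 0 = 0) => show (a * b).1 1 0 = 0 by simp [sl2_mul, ha, hb]
  inv_mem' := fun {a} (ha : a.1 1 0 = 0) => show (a⁻¹).1 1 0 = 0 by simp [(sl2_inv a).2.2.1, ha]

/-- The first diagonal entry. -/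
def borChar (K : Type*) [Field K] : Bor K →* K where
  toFun g := g.1.1 0 0
  map_one' := sl2_one.1
  map_mul' a b := by
    have : b.1.1 1 0 = 0 := b.2
    simp [sl2_mul, this]

/-- Diagonal matrices. -/
def dgm (a : Kˣ) : SL2 K := ⟨!![a, 0; 0, (a⁻¹ : Kˣ)], by simp [det_fin_two]⟩

theorem exists_diag [Finite K] [Fact p.Prime] [CharP K p] (hp : p ≠ 2) {L : Subgroup (SL2 K)} {l : K} (hl : l ≠ 0)
    (h1 : tU l ∈ L) (h2 : tL 1 ∈ L) (a : (ZMod p)ˣ) :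
    ∃ d ∈ L, d.1 1 0 = 0 ∧ d.1 0 0 = ZMod.castHom (dvd_refl p) K a := by
  set ι := ZMod.castHom (dvd_refl p) K
  obtain ⟨u, hu, v, hv, h5, h6, h7⟩ := PLocal.exists_unip_pair hp (PLocal.unip_tU l).pow_eq_one
    (PLocal.unip_tL 1).pow_eq_one h1 h2 (fun h => by
      have := (PLocal.commute_iff.1 ((PLocal.sl2_comm_of_odd hp h).comm
        (subset_closure (by simp)) (subset_closure (by simp)) : Commute (tU l) (tL 1))).1
      simp [hl] at this)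
  obtain ⟨Φ, P, h8, h9, h10, h11⟩ := PLocal.exists_SL2_prime_hom h5 h6 (neg_ne_zero.2 one_ne_zero) h7
  have h12 : Φ.range ≤ L := h9.trans_le ((closure_le _).2 (by rintro _ (rfl | rfl) <;> assumption))
  have pg : ∀ {c : SL2 K}, c ^ p = 1 → IsPGroup p (zpowers c) := fun h => PLocal.ea_isPGroup (PLocal.ea_zpowers h)
  obtain ⟨T, hT, h13⟩ := Sylow_superset (zpowers_le.2 h1) (pg (PLocal.unip_tU l).pow_eq_one)
  have hup : Φ (tU 1) ^ p = 1 := by rw [← map_pow, (PLocal.unip_tU _).pow_eq_one, map_one]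
  obtain ⟨g, hg, h14⟩ := Sylow_Jsub hT (zpowers_le.2 (h12 ⟨tU 1, rfl⟩)) (pg hup)
  have hc : Commute (tU l) (g * Φ (tU 1) * g⁻¹) := (PLocal.sl2_comm_of_odd hp hT.pg).comm (h13 (mem_zpowers _))
    (h14 (conj_mem_cj g (mem_zpowers _)))
  obtain ⟨c1, c2, -⟩ := PLocal.commute_iff.1 hc
  have hun := PLocal.unip_iff.1 ((PLocal.unip_of_pow_eq_one hup).conj g)
  have hne : g * Φ (tU 1) * g⁻¹ ≠ 1 := fun h => by
    rw [conj_eq_one_iff, map_eq_one_iff _ h8] at h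
    simpa [sl2_one.2.1] using congrArg (fun m : SL2 (ZMod p) => m.1 0 1) h
  have key : ∀ m : SL2 (ZMod p), (g * Φ m * g⁻¹).1 * (g.1 * P) = g.1 * P * m.1.map ι := fun m => by
    have e : (g⁻¹).1 * g.1 = 1 := congrArg Subtype.val (inv_mul_cancel g)
    show g.1 * (Φ m).1 * (g⁻¹).1 * _ = _
    rw [mul_assoc, ← mul_assoc (g⁻¹).1, e, one_mul, mul_assoc, h11, mul_assoc]
  have hQ : (g.1 * P).det ≠ 0 := by rw [det_mul, g.det_coe, one_mul]; exact h10.ne_zero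
  have k1 := key (tU 1)
  have k2 := key (dgm a)
  refine ⟨g * Φ (dgm a) * g⁻¹, L.mul_mem (L.mul_mem hg (h12 ⟨_, rfl⟩)) (L.inv_mem hg), ?_⟩
  generalize g * Φ (tU 1) * g⁻¹ = u' at *
  generalize g * Φ (dgm a) * g⁻¹ = d' at *
  generalize g.1 * P = Q at *
  have two := PLocal.two_ne_zero_of_charP (K := K) hp
  simp only [PLocal.tU_00, PLocal.tU_01, PLocal.tU_10, PLocal.tU_11, PLocal.tr2] at c1 c2 hun
  have u10 : u'.1 1 0 = 0 := by grind
  have u00 : u'.1 0 0 = 1 := by grind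
  have u11 : u'.1 1 1 = 1 := by grind
  have u01 : u'.1 0 1 ≠ 0 := fun h => hne (sl2_ext (u00.trans sl2_one.1.symm) (h.trans sl2_one.2.1.symm)
    (u10.trans sl2_one.2.2.1.symm) (u11.trans sl2_one.2.2.2.symm))
  have e1 := congrFun (congrFun k1 0) 0
  have e2 := congrFun (congrFun k2 0) 0
  have e3 := congrFun (congrFun k2 1) 0
  replace e1 : u'.1 0 1 * Q 1 0 = 0 := by
    simp only [Matrix.mul_apply, Fin.sum_univ_two, map_apply, PLocal.tU_00, PLocal.tU_10, map_one, map_zero, u00] at e1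
    linear_combination e1
  have d0 : (dgm a).1 0 0 = a := rfl
  have d1 : (dgm a).1 1 0 = 0 := rfl
  simp only [Matrix.mul_apply, Fin.sum_univ_two, map_apply, d0, d1, map_zero] at e2 e3
  have q10 : Q 1 0 = 0 := (mul_eq_zero.1 e1).resolve_left u01
  rw [det_fin_two, q10] at hQ
  have q00 : Q 0 0 ≠ 0 := fun h => hQ (by simp [h])
  rw [q10] at e2 e3
  constructor
  · exact mul_right_cancel₀ q00 (by linear_combination e3)
  · exact mul_right_cancel₀ q00 (by linear_combination e2)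

theorem tU_mulVec (l : K) (v : Fin 2 → K) : (tU l).1 *ᵥ v = ![v 0 + l * v 1, v 1] := by
  ext i; fin_cases i <;> simp [mulVec, dotProduct]

theorem tL_mulVec (l : K) (v : Fin 2 → K) : (tL l).1 *ᵥ v = ![v 0, l * v 0 + v 1] := by
  ext i; fin_cases i <;> simp [mulVec, dotProduct]

theorem dgm_mulVec (a : Kˣ) (v : Fin 2 → K) : (dgm a).1 *ᵥ v = ![a * v 0, (a⁻¹ : Kˣ) * v 1] := by
  ext i; fin_cases i <;> simp [dgm, mulVec, dotProduct]

theorem exists_rel [Finite G] [Fact p.Prime] (hV : Abelem p V) (hx : x ∈ N[V]) (hy : y ∈ N[V])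
    (qx : ⁅⁅V, zpowers x⁆, zpowers x⁆ = ⊥) (qy : ⁅⁅V, zpowers y⁆, zpowers y⁆ = ⊥) (hz : z ∈ V) (hxz : z ∈ C1[x])
    (hn : ¬ ∀ g ∈ closure ({x, y} : Set G), ∃ k, g ^ p ^ k ∈ C1[z]) :
    ∃ (F : Type) (_ : Field F) (_ : Finite F) (_ : CharP F p) (l : F) (R : Subgroup (G × SL(3, F))), l ≠ 0 ∧
      Rel V R ∧ (x, tU l) ∈ Lam R ∧ (y, tL 1) ∈ Lam R ∧ (z, qdM ![1, 0] 1) ∈ R := by
  let ρ := abRep hV (le_refl N[V])
  have hX : (ρ ⟨x, hx⟩ - 1) * (ρ ⟨x, hx⟩ - 1) = 0 := (pow_two _).symm.trans (PLocal.abRep_quad hV _ (a := ⟨x, hx⟩) qx)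
  have hY : (ρ ⟨y, hy⟩ - 1) * (ρ ⟨y, hy⟩ - 1) = 0 := (pow_two _).symm.trans (PLocal.abRep_quad hV _ (a := ⟨y, hy⟩) qy)
  have hz' : (ρ ⟨x, hx⟩ - 1) (AbV.mk hV z hz) = 0 := sub_eq_zero.2 (abRep_apply_eq_self.2 hxz)
  obtain ⟨F, _, _, _, l, R₁, hl, h1, h2, h3, h4, h5⟩ := quad_nat hX hY hz' fun n h0 => hn fun g hg => by
    have e : closure ({x, y} : Set G) = (closure {(⟨x, hx⟩ : N[V]), ⟨y, hy⟩}).map N[V].subtype := by
      rw [MonoidHom.map_closure, Set.image_pair]; rfl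
    obtain ⟨g, hg', rfl⟩ := e.le hg
    obtain ⟨k, hk⟩ := quad_nil ρ (add_sub_cancel _ _).symm (add_sub_cancel _ _).symm hX hY hz' h0 hg'
    exact ⟨k, mem_cent1_comm.1 (abRep_apply_eq_self.1 hk)⟩
  let R : Subgroup (G × SL(3, F)) :=
    { carrier := {q | ∃ w v, (w, v) ∈ R₁ ∧ q = (w.val, qdM v 1)}
      one_mem' := ⟨0, 0, R₁.zero_mem, by rw [qdM_one]; rfl⟩
      mul_mem' := by
        rintro _ _ ⟨w, v, h, rfl⟩ ⟨w', v', h', rfl⟩
        exact ⟨_, _, R₁.add_mem h h', by rw [Prod.mk_mul_mk, tr_mul]; rfl⟩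
      inv_mem' := by
        rintro _ ⟨w, v, h, rfl⟩
        exact ⟨_, _, R₁.neg_mem h, by rw [Prod.inv_mk, tr_inv]; rfl⟩ }
  have hR : Rel V R := ⟨by rintro _ ⟨w, v, -, rfl⟩; exact ⟨w.val_mem, v, rfl⟩,
    fun v => (h1 v).elim fun w hw => ⟨_, w, v, hw, rfl⟩, by
      rintro v ⟨w, v', h, e⟩
      obtain ⟨e1, e2⟩ := Prod.ext_iff.1 e
      obtain rfl := (qdM_inj.1 e2).1
      obtain rfl := AbV.val_eq_one.1 e1.symm
      exact h2 _ h⟩
  refine ⟨F, inferInstance, inferInstance, inferInstance, l, R, hl, hR, hR.mem_Lam ?_, hR.mem_Lam ?_, _, _, h3, rfl⟩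
  · rintro w v ⟨w', v', h, e⟩
    obtain ⟨rfl, e2⟩ := Prod.ext_iff.1 e
    obtain rfl := (qdM_inj.1 e2).1
    refine ⟨_, _, h4 _ _ h, ?_⟩
    rw [tU_mulVec, LinearMap.sub_apply, Module.End.one_apply, add_sub_cancel]; rfl
  · rintro w v ⟨w', v', h, e⟩
    obtain ⟨rfl, e2⟩ := Prod.ext_iff.1 e
    obtain rfl := (qdM_inj.1 e2).1
    refine ⟨_, _, h5 _ _ h, ?_⟩
    rw [tL_mulVec, LinearMap.sub_apply, Module.End.one_apply, add_sub_cancel, one_mul]; rfl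

theorem bor_pow {n : SL2 K} (h : n.1 1 0 = 0) (j : ℕ) : (n ^ (j + 1)).1 1 0 = 0 ∧ (n ^ (j + 1)).1 0 0 = n.1 0 0 ^ (j + 1) ∧
    (n.1 0 0 = n.1 1 1 → (n ^ (j + 1)).1 0 1 = ((j + 1 : ℕ) : K) * n.1 0 0 ^ j * n.1 0 1) := by
  induction j with
  | zero => simpa using h
  | succ j ih =>
    obtain ⟨h1, h2, h3⟩ := ih
    rw [pow_succ n (j + 1)]
    refine ⟨by rw [sl2_mul, h, h1]; ring, by rw [sl2_mul, h, h2]; ring, fun e => ?_⟩
    rw [sl2_mul, h2, h3 e, ← e]; push_cast; ring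

theorem exists_torus [Finite G] [Finite K] [Fact p.Prime] [CharP K p] (hp : p ≠ 2) {Λ : Subgroup (G × SL2 K)} {l : K}
    (hl : l ≠ 0) (h1 : (x, tU l) ∈ Λ) (h2 : (y, tL 1) ∈ Λ) (px : PiElt {p} x) (a : (ZMod p)ˣ) :
    ∃ d ∈ closure ({x, y} : Set G), ∃ R₀ ≤ closure ({x, y} : Set G), IsPGroup p R₀ ∧ x ∈ R₀ ∧ d ∈ N[R₀] ∧
      ∃ (M : SL2 K) (b : K), (d, M) ∈ Λ ∧ M.1 *ᵥ ![1, 0] = ![ZMod.castHom (dvd_refl p) K a, 0] ∧
        M.1 *ᵥ ![b, 1] = ZMod.castHom (dvd_refl p) K (a⁻¹ : (ZMod p)ˣ) • ![b, 1] := by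
  have hp' : p.Prime := Fact.out
  set ι := ZMod.castHom (dvd_refl p) K
  let Γ : Subgroup (G × SL2 K) := closure {(x, tU l), (y, tL 1)}
  have hΓ : Γ ≤ Λ := (closure_le _).2 (by rintro _ (rfl | rfl) <;> assumption)
  have hΓ1 : Γ.map (MonoidHom.fst _ _) = closure {x, y} := by rw [MonoidHom.map_closure, Set.image_pair]; rfl
  have m1 : (x, tU l) ∈ Γ := subset_closure (by simp)
  have m2 : (y, tL 1) ∈ Γ := subset_closure (by simp)
  obtain ⟨_, ⟨d₀, hd₀, rfl⟩, d1, d2⟩ := exists_diag hp (L := Γ.map (MonoidHom.snd _ _)) hl (mem_map_of_mem _ m1)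
    (mem_map_of_mem _ m2) a
  let U : Subgroup (SL2 K) := (borChar K).ker.map (Bor K).subtype
  have nU : Γ ⊓ U.comap (MonoidHom.snd _ _) ⊴ Γ ⊓ (Bor K).comap (MonoidHom.snd _ _) :=
    ⟨inf_le_inf_left _ (comap_mono (map_subtype_le _)), le_norm_iff.2 fun g hg k hk =>
      ⟨Γ.mul_mem (Γ.mul_mem hg.1 hk.1) (Γ.inv_mem hg.1),
        (normal_map_subtype (MonoidHom.normal_ker _)).conj_mem hg.2 hk.2⟩⟩
  have pe : IsPGroup p (zpowers (x, tU l)) := by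
    obtain ⟨k, hk⟩ := (p_natP hp').1 px
    refine PiNat.pg (p_elt_zpowers.2 ((pnat_pow_self hp' (k + 1)).of_dvd (orderOf_dvd_of_pow_eq_one ?_)))
    rw [Prod.pow_mk, pow_succ, pow_mul, ← hk, pow_orderOf_eq_one, one_pow, mul_comm, pow_mul,
      (PLocal.unip_tU l).pow_eq_one, one_pow]; rfl
  obtain ⟨T, hT, h3⟩ := Sylow_superset (M := Γ ⊓ U.comap (MonoidHom.snd _ _))
    (zpowers_le.2 ⟨m1, ⟨tU l, rfl⟩, rfl, rfl⟩) pe
  obtain ⟨k, hk, n, hn, e⟩ := (mem_sup_norml (inf_le_left.trans nU.norm)).1 ((Frattini_arg nU hT).ge ⟨hd₀, d1⟩)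
  obtain ⟨k', hk', ek⟩ := hk.2
  have n0 : n.2.1 1 0 = 0 := hn.1.2
  have n1 : n.2.1 0 0 = ι a := by
    have e1 : k.2.1 0 0 = 1 := by rw [← show k'.1 = k.2 from ek]; exact hk'
    have : d₀.2.1 0 0 = ι a := d2
    rwa [e, Prod.snd_mul, sl2_mul, e1, n0, mul_zero, add_zero, one_mul] at this
  obtain ⟨j, hj⟩ : ∃ j, p = j + 1 := ⟨_, (Nat.succ_pred_eq_of_pos hp'.pos).symm⟩
  obtain ⟨w1, w2, w3⟩ := bor_pow n0 j
  rw [← hj] at w1 w2 w3
  rw [n1, ← map_pow, ZMod.pow_card] at w2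
  have ia : ι a * ι (a⁻¹ : (ZMod p)ˣ) = 1 := by rw [← map_mul, Units.mul_inv, map_one]
  have dt := sl2_det (n.2 ^ p)
  have dn := sl2_det n.2
  refine ⟨(n ^ p).1, hΓ1 ▸ mem_map_of_mem _ (Γ.pow_mem hn.1.1 p), T.map (MonoidHom.fst _ _),
    hΓ1 ▸ map_mono (hT.le.trans inf_le_left), hT.pg.map _, mem_map_of_mem _ (h3 (mem_zpowers _)),
    norms_map _ (zpowers_le.2 (pow_mem hn.2 p)) (mem_map_of_mem _ (mem_zpowers _)), n.2 ^ p, ?_⟩
  have hm : ((n ^ p).1, n.2 ^ p) ∈ Λ := hΓ (Γ.pow_mem hn.1.1 p)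
  generalize n.2 ^ p = M at *
  generalize ι (a⁻¹ : (ZMod p)ˣ) = c at *
  generalize ι a = c' at *
  have v1 : M.1 *ᵥ ![1, 0] = ![c', 0] := by
    ext i; fin_cases i <;> simp [mulVec, dotProduct, w1, w2]
  have w4 : M.1 1 1 = c := by grind
  by_cases hab : c' = c
  · refine ⟨0, hm, v1, ?_⟩
    have w5 := w3 (by grind)
    rw [CharP.cast_eq_zero, zero_mul, zero_mul] at w5
    ext i; fin_cases i <;> simp [mulVec, dotProduct, w4, w5]
  · refine ⟨M.1 0 1 / (c - c'), hm, v1, ?_⟩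
    have := sub_ne_zero.2 (Ne.symm hab)
    ext i; fin_cases i <;> simp [mulVec, dotProduct, w1, w2, w4]
    field_simp; ring

theorem exists_borel_pair [Finite G] [Fact p.Prime] (hp : p ≠ 2) (hV : Abelem p V) (hx : x ∈ N[V]) (hy : y ∈ N[V])
    (qx : ⁅⁅V, zpowers x⁆, zpowers x⁆ = ⊥) (qy : ⁅⁅V, zpowers y⁆, zpowers y⁆ = ⊥) (hz : z ∈ V) (hxz : z ∈ C1[x])
    (px : PiElt {p} x) (a : (ZMod p)ˣ) (hn : ¬ ∀ g ∈ closure ({x, y} : Set G), ∃ k, g ^ p ^ k ∈ C1[z]) :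
    ∃ d ∈ closure ({x, y} : Set G), ∃ R₀ ≤ closure ({x, y} : Set G), IsPGroup p R₀ ∧ x ∈ R₀ ∧ d ∈ N[R₀] ∧
      ∃ R : Subgroup (G × SL(3, ZMod p)), Rel V R ∧ (x, tU 1) ∈ Lam R ∧ (d, dgm a) ∈ Lam R ∧
        (z, qdM ![1, 0] 1) ∈ R := by
  obtain ⟨F, _, _, _, l, R, hl, hR, h1, h2, h3⟩ := exists_rel hV hx hy qx qy hz hxz hn
  obtain ⟨d, hd, R₀, h4, h5, h6, h7, M, b, h8, h9, h10⟩ := exists_torus hp hl h1 h2 px a
  set ι := ZMod.castHom (dvd_refl p) F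
  let j : (Fin 2 → ZMod p) → Fin 2 → F := fun v => ι (v 0) • ![1, 0] + (ι (v 1) * l⁻¹) • ![b, 1]
  have j_add : ∀ u v, j (u + v) = j u + j v := fun u v => by simp only [j, Pi.add_apply, map_add]; module
  have j_neg : ∀ u, j (-u) = -j u := fun u => by simp only [j, Pi.neg_apply, map_neg]; module
  let R' : Subgroup (G × SL(3, ZMod p)) :=
    { carrier := {q | ∃ v, q.2 = qdM v 1 ∧ (q.1, qdM (j v) 1) ∈ R}
      one_mem' := ⟨0, qdM_one.symm, by rw [show j 0 = 0 by simp [j], qdM_one]; exact R.one_mem⟩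
      mul_mem' := by
        rintro q q' ⟨v, e, h⟩ ⟨v', e', h'⟩
        exact ⟨v + v', by rw [Prod.snd_mul, e, e', tr_mul], by rw [j_add, ← tr_mul]; exact R.mul_mem h h'⟩
      inv_mem' := by
        rintro q ⟨v, e, h⟩
        exact ⟨-v, by rw [Prod.snd_inv, e, tr_inv], by rw [j_neg, ← tr_inv]; exact R.inv_mem h⟩ }
  have mem : ∀ w v, (w, qdM v 1) ∈ R' ↔ (w, qdM (j v) 1) ∈ R := fun w v =>
    ⟨by rintro ⟨v', e, h⟩; rw [(qdM_inj.1 e).1]; exact h, fun h => ⟨v, rfl, h⟩⟩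
  have hR' : Rel V R' := ⟨by rintro q ⟨v, e, h⟩; exact ⟨(hR.mem _ h).1, v, e⟩,
    fun v => (hR.surj (j v)).imp fun w hw => (mem _ _).2 hw, fun v hv => by
      have h := hR.func _ ((mem _ _).1 hv)
      have e1 : v 1 = 0 := by simpa [j, hl] using congrFun h 1
      have e0 : v 0 = 0 := by simpa [j, e1] using congrFun h 0
      ext i; fin_cases i <;> assumption⟩
  refine ⟨d, hd, R₀, h4, h5, h6, h7, R', hR', hR'.mem_Lam fun w v hw => (mem _ _).2 ?_,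
    hR'.mem_Lam fun w v hw => (mem _ _).2 ?_, (mem _ _).2 (by simpa [j] using h3)⟩
  · convert Lam.act h1 ((mem _ _).1 hw) using 3
    rw [tU_mulVec, tU_mulVec]
    ext i; fin_cases i <;> simp [j]
    field_simp; ring
  · convert Lam.act h8 ((mem _ _).1 hw) using 3
    rw [dgm_mulVec]
    simp only [j, mulVec_add, mulVec_smul, h9, h10, cons_val_zero, cons_val_one, map_mul]
    generalize ι (a⁻¹ : (ZMod p)ˣ) = c
    generalize ι a = c'
    ext i; fin_cases i <;> simp <;> ring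

end Cfsg.Agent.LieM
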