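import Cfsg.Agent.LieM.SuffB
import Cfsg.Agent.Gold.Base

/-! `involves_fOver`, the weight statement `Wt`, the pair selection `exists_pair` in a group whose Sylow subgroup lies
in a unique maximal subgroup, and the local theorem `suff_loc`. -/

set_option autoImplicit false

namespace Cfsg.Agent.LieM
open Subgroup Cfsg.Agent.BG Matrix
open Cfsg.Agent.PLocal (SL2 qdM qdM_mul qdM_one qdM_inj qdM_inv tU tL sl2_ext sl2_mul sl2_det sl2_inv sl2_one)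
open scoped MatrixGroups commutatorElement

variable {G : Type*} [Group G] {p : ℕ} {K : Type*} [Field K]

theorem mem_fOver {M : SL(3, K)} : M ∈ fOver K ↔ ∃ y, ∃ g ∈ Bor K, M = qdM y g := by
  refine ⟨fun h => ?_, by rintro ⟨y, g, hg, rfl⟩; exact subset_closure ⟨hg, rfl, rfl, rfl⟩⟩
  induction h using closure_induction with
  | mem M h =>
    obtain ⟨y, g, rfl⟩ := PLocal.exists_qdM h.2.1 h.2.2.1 h.2.2.2
    exact ⟨y, g, h.1, rfl⟩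
  | one => exact ⟨0, 1, one_mem _, qdM_one.symm⟩
  | mul _ _ _ _ h1 h2 =>
    obtain ⟨y, g, hg, rfl⟩ := h1
    obtain ⟨y', g', hg', rfl⟩ := h2
    exact ⟨_, _, mul_mem hg hg', qdM_mul _ _ _ _⟩
  | inv _ _ h => obtain ⟨y, g, hg, rfl⟩ := h; exact ⟨_, _, inv_mem hg, qdM_inv _ _⟩

theorem dgm_mul (a b : Kˣ) : dgm a * dgm b = dgm (a * b) :=
  sl2_ext (by rw [sl2_mul]; simp [dgm]) (by rw [sl2_mul]; simp [dgm]) (by rw [sl2_mul]; simp [dgm])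
    (by rw [sl2_mul]; simp [dgm, mul_comm])

theorem dgm_pow (a : Kˣ) (n : ℕ) : dgm a ^ n = dgm (a ^ n) := by
  induction n with
  | zero =>
    obtain ⟨o1, o2, o3, o4⟩ := sl2_one (K := K)
    rw [pow_zero, pow_zero]
    exact sl2_ext (o1.trans (by simp [dgm])) (o2.trans (by simp [dgm])) (o3.trans (by simp [dgm])) (o4.trans (by simp [dgm]))
  | succ n ih => rw [pow_succ, ih, dgm_mul, pow_succ]

theorem bor_le [Fact p.Prime] {a : (ZMod p)ˣ} (ha : ∀ b, b ∈ Submonoid.powers a) {L : Subgroup (SL2 (ZMod p))}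
    (h1 : tU 1 ∈ L) (h2 : dgm a ∈ L) : Bor (ZMod p) ≤ L := by
  intro g (hg : g.1 1 0 = 0)
  have dt := sl2_det g
  rw [hg, mul_zero, sub_zero] at dt
  have h0 : g.1 0 0 ≠ 0 := left_ne_zero_of_mul_eq_one dt
  obtain ⟨n, hn⟩ := ha (Units.mk0 _ h0)
  have hn : a ^ n = Units.mk0 _ h0 := hn
  obtain ⟨e1, e2, e3, e4⟩ := (PLocal.unip_tU (1 : ZMod p)).pow_entries (g.1 0 1 / g.1 0 0).val
  have : g = dgm a ^ n * tU 1 ^ (g.1 0 1 / g.1 0 0).val := by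
    rw [dgm_pow, hn]
    refine sl2_ext ?_ ?_ ?_ ?_ <;> simp only [sl2_mul, e1, e2, e3, e4] <;> simp [dgm, hg]
    · field_simp
    · exact eq_inv_of_mul_eq_one_right dt
  rw [this]
  exact L.mul_mem (L.pow_mem h2 _) (L.pow_mem h1 _)

variable [Finite G] [Fact p.Prime] {V A Z L P M : Subgroup G} {R : Subgroup (G × SL(3, ZMod p))} {x y z d h : G}

theorem involves_fOver (hp : p ≠ 2) (hV : Abelem p V) (hR : Rel V R) {a : (ZMod p)ˣ}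
    (ha : ∀ b, b ∈ Submonoid.powers a) (h1 : (x, tU 1) ∈ Lam R) (h2 : (h, dgm a) ∈ Lam R) (hA : V ≤ A) (hx : x ∈ A ⊓ N[V])
    (hh : h ∈ A ⊓ N[V]) : PLocal.Involves A (fOver (ZMod p)) := by
  let L₁ : Subgroup (G × SL2 (ZMod p)) :=
    Lam R ⊓ (A ⊓ N[V]).comap (MonoidHom.fst _ _) ⊓ (Bor _).comap (MonoidHom.snd _ _)
  have hL : Bor (ZMod p) ≤ L₁.map (MonoidHom.snd _ _) :=
    bor_le ha (mem_map_of_mem _ (show (x, tU 1) ∈ L₁ from ⟨⟨h1, hx⟩, rfl⟩))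
      (mem_map_of_mem _ (show (h, dgm a) ∈ L₁ from ⟨⟨h2, hh⟩, rfl⟩))
  have hz : (-1 : SL2 (ZMod p)) ∈ center _ := mem_center_iff.2 fun g => by simp
  haveI : (zpowers (-1 : SL2 (ZMod p))).Normal := ⟨fun n hn g => by
    rwa [mem_center_iff.1 ((zpowers_le).2 hz hn) g, mul_inv_cancel_right]⟩
  have nK : L₁ ⊓ (zpowers (-1 : SL2 (ZMod p))).comap (MonoidHom.snd _ _) ⊴ L₁ := normalGI le_top (normal_top _)
  obtain ⟨T, hT⟩ := Sylow_exists 2 (L₁ ⊓ (zpowers (-1 : SL2 (ZMod p))).comap (MonoidHom.snd _ _))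
  have hT2 := pHall_map (MonoidHom.snd _ _) hT
  rw [map_inf_comap, inf_eq_right.2 (zpowers_le.2 (hL (show (-1 : SL2 (ZMod p)).1 1 0 = 0 by simp)))] at hT2
  have hT3 := Hall_max hT2 hT2.le le_rfl (p_elt_zpowers.2 ((pnat_pow_self Nat.prime_two 1).of_dvd
    (orderOf_dvd_of_pow_eq_one (by simp))))
  obtain ⟨t, ht, ht'⟩ := hT3.le (mem_zpowers _)
  have tL := (hT.le ht).1
  let φ := (MonoidHom.id G).prodMap (lin (ZMod p))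
  have hn : (L₁ ⊓ N[T]).map φ ≤ N[R] := by rintro _ ⟨m, hm, rfl⟩; exact hm.1.1.1
  have mem : ∀ q ∈ R ⊔ (L₁ ⊓ N[T]).map φ, ∃ w v, ∃ m ∈ L₁ ⊓ N[T], (w, qdM v 1) ∈ R ∧ q = (w * m.1, qdM v m.2) := by
    intro q hq
    obtain ⟨⟨w, r⟩, hr, _, ⟨m, hm, rfl⟩, rfl⟩ := (mem_sup_norml hn).1 hq
    obtain ⟨-, v, rfl⟩ : _ ∧ ∃ v, r = qdM v 1 := hR.mem _ hr
    exact ⟨w, v, m, hm, hr, Prod.ext rfl ((qdM_mul v 0 1 m.2).trans (by simp))⟩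
  refine PLocal.involves_of_ker_le ((MonoidHom.fst _ _).comp (R ⊔ (L₁ ⊓ N[T]).map φ).subtype)
    (((MonoidHom.snd _ _).comp (R ⊔ (L₁ ⊓ N[T]).map φ).subtype).codRestrict _ fun q => ?_) (fun ⟨M, hM⟩ => ?_) ?_ ?_
  · obtain ⟨w, v, m, hm, -, e⟩ := mem _ q.2
    exact mem_fOver.2 ⟨v, m.2, hm.1.2, congrArg Prod.snd e⟩
  · obtain ⟨v, g, hg, rfl⟩ := mem_fOver.1 hM
    obtain ⟨w, hw⟩ := hR.surj v
    obtain ⟨l, hl, rfl⟩ := hL hg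
    obtain ⟨k, h3, n, h4, rfl⟩ := (mem_sup_norml (inf_le_left.trans nK.norm)).1 ((Frattini_arg nK hT).ge hl)
    obtain ⟨s, h5, h6⟩ := hT3.le h3.2
    have h7 : s * n ∈ L₁ ⊓ N[T] := mul_mem ⟨(hT.le h5).1, normG T h5⟩ h4
    refine ⟨⟨_, mul_mem_sup hw (mem_map_of_mem φ h7)⟩, Subtype.ext ((qdM_mul v 0 1 (s * n).2).trans ?_)⟩
    have : s.2 = k.2 := h6
    simp [this]
  · rintro ⟨q, hq⟩ h5
    obtain ⟨w, v, m, hm, hw, rfl⟩ := mem _ hq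
    have h6 : m.1 = w⁻¹ := eq_inv_of_mul_eq_one_right h5
    have wV := (hR.mem _ hw).1
    have h8 : m.2 = 1 := hR.eq_one (g := m.1) hm.1.1.1 (hV.1.cent (h6 ▸ inv_mem wV))
    have h9 : t.1 * w⁻¹ * t.1⁻¹ * w ∈ V ⊓ T.map (MonoidHom.fst _ _) := by
      refine ⟨mul_mem (conj_mem_of_norm tL.1.2.2 (inv_mem wV)) wV, t * (m * t⁻¹ * m⁻¹),
        mul_mem ht (conj_mem_of_norm hm.2 (inv_mem ht)), ?_⟩
      simp [h6, mul_assoc]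
    rw [pgroup_p'_TI (PLocal.ea_isPGroup hV) (p'group_of_ne (hT.pg.map _) hp.symm), mem_bot] at h9
    have h10 : t.1 * w * t.1⁻¹ = w := by
      rw [← _root_.inv_inj, ← mul_inv_eq_one.1 (show t.1 * w⁻¹ * t.1⁻¹ * w⁻¹⁻¹ = 1 by rwa [inv_inv])]
      group
    have h11 := Lam.act (g := t.1) (M := t.2) tL.1.1 hw
    rw [h10, show t.2 = -1 from ht', show (-1 : SL2 (ZMod p)).1 = -1 from rfl, neg_mulVec, one_mulVec] at h11
    have h12 := hR.sub hw h11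
    rw [eq_neg_iff_add_eq_zero, ← two_smul (ZMod p)] at h12
    have h13 : v = 0 := (smul_eq_zero.1 h12).resolve_left (PLocal.two_ne_zero_of_charP hp)
    exact Subtype.ext (show qdM v m.2 = 1 by rw [h13, h8, qdM_one])
  · rintro _ ⟨⟨q, hq⟩, rfl⟩
    obtain ⟨w, v, m, hm, hw, rfl⟩ := mem _ hq
    exact mul_mem (hA (hR.mem _ hw).1) hm.1.1.2.1

/-- Some element of `H` acts as the `n`-th power map on a nontrivial section of `Z`. -/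
def Wt (H Z : Subgroup G) (n : ℕ) : Prop :=
  ∃ h ∈ H, ∃ Z₂ ≤ Z, ∃ W : Subgroup G, h ∈ N[Z₂] ∧ ¬ Z₂ ≤ W ∧ ∀ w ∈ Z₂, h * w * h⁻¹ * (w ^ n)⁻¹ ∈ W

theorem wt_of_rel (hR : Rel V R) {a : (ZMod p)ˣ} (h2 : (h, dgm a) ∈ Lam R) (hz : (z, qdM ![1, 0] 1) ∈ R) (zZ : z ∈ Z)
    (hh : h ∈ A) (hn : h ∈ N[Z]) : Wt A Z (a : ZMod p).val := by
  let W₁ : Subgroup G :=
    { carrier := {w | ∃ c, (w, qdM ![c, 0] 1) ∈ R}
      one_mem' := ⟨0, by rw [show ![0, 0] = (0 : Fin 2 → ZMod p) by simp, qdM_one]; exact R.one_mem⟩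
      mul_mem' := by
        rintro w w' ⟨c, h⟩ ⟨c', h'⟩
        exact ⟨c + c', by simpa [tr_mul] using R.mul_mem h h'⟩
      inv_mem' := by
        rintro w ⟨c, h⟩
        exact ⟨-c, by simpa [tr_inv] using R.inv_mem h⟩ }
  have act : ∀ w c, (w, qdM ![c, 0] 1) ∈ R → (h * w * h⁻¹, qdM ![a * c, 0] 1) ∈ R := fun w c hw => by
    have := Lam.act h2 hw
    rwa [dgm_mulVec, cons_val_zero, cons_val_one, cons_val_zero, mul_zero] at this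
  have pw : ∀ (n : ℕ) w c, (w, qdM ![c, 0] 1) ∈ R → (w ^ n, qdM ![n * c, 0] 1) ∈ R := fun n w c hw => by
    induction n with
    | zero => rw [pow_zero, Nat.cast_zero, zero_mul, show ![0, 0] = (0 : Fin 2 → ZMod p) by simp, qdM_one]; exact R.one_mem
    | succ n ih => simpa [tr_mul, pow_succ, add_mul] using R.mul_mem ih hw
  refine ⟨h, hh, Z ⊓ W₁, inf_le_left, R.comap (MonoidHom.inl _ _), normsI (zpowers_le.2 hn) (zpowers_le.2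
    (mem_norm_of_cj_le ?_)) (mem_zpowers h), fun hle => ?_, ?_⟩
  · intro _ hq
    obtain ⟨w, ⟨c, hw⟩, rfl⟩ := mem_cj'.1 hq
    exact ⟨_, act w c hw⟩
  · have : (z, qdM 0 1) ∈ R := by rw [qdM_one]; exact hle ⟨zZ, 1, hz⟩
    simpa using congrFun (hR.sub hz this) 0
  · rintro w ⟨-, c, hw⟩
    have := R.mul_mem (act w c hw) (R.inv_mem (pw (a : ZMod p).val w c hw))
    rwa [ZMod.natCast_zmod_val, Prod.inv_mk, Prod.mk_mul_mk, mul_inv_cancel] at this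

theorem exists_norm_elt (hP : IsPGroup p P) {Q : Subgroup G} (hQ : Q ≤ P) {𝒦 : Set G}
    (h𝒦 : ∀ g ∈ P, ∀ k ∈ 𝒦, g * k * g⁻¹ ∈ 𝒦) (h : ¬ ∀ k ∈ 𝒦, k ∈ P → k ∈ Q) :
    ∃ x ∈ 𝒦, x ∈ P ∧ x ∉ Q ∧ x ∈ N[closure (𝒦 ∩ Q)] := by
  obtain ⟨T, h1, ⟨h2, h3⟩, h4⟩ := maxgroup_exists (P := fun T => T ≤ P ∧ ∀ k ∈ 𝒦, k ∈ T → k ∈ Q) (A := Q)
    ⟨hQ, fun _ _ h => h⟩
  have hlt := nilpotent_proper_norm (pgroup_nil hP) (lt_of_le_of_ne h2 fun e => h (e ▸ h3))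
  by_contra! hc
  refine hlt.ne' (h4 _ ⟨inf_le_left, fun k hk hk' => by_contra fun hq => hc k hk hk'.1 hq ?_⟩ hlt.le)
  refine norms_closure (C := P ⊓ N[T]) (fun g hg y hy => ?_) hk'
  exact ⟨h𝒦 g hg.1 y hy.1, h3 _ (h𝒦 g hg.1 y hy.1) (conj_mem_of_norm hg.2 (h1 hy.2))⟩

theorem exists_pair (hP : SylowIn p P L) (hM : M ≤ L) (hML : M ≠ L) (hPM : P ≤ M)
    (hu : ∀ K, P ≤ K → K ≤ L → K ≠ L → K ≤ M) {𝒦 : Set G} (h𝒦 : ∀ g ∈ L, ∀ k ∈ 𝒦, g * k * g⁻¹ ∈ 𝒦)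
    (hW : ¬ L ≤ N[closure (𝒦 ∩ P)]) :
    ∃ x ∈ 𝒦, x ∈ P ∧ ∃ y ∈ 𝒦, y ∈ L ∧ y ∉ M ∧ ∀ R₀ ≤ closure ({x, y} : Set G), IsPGroup p R₀ → x ∈ R₀ →
      closure ({x, y} : Set G) ⊓ N[R₀] ≤ M := by
  have hNW : L ⊓ N[closure (𝒦 ∩ P)] ≤ M := hu _ (le_inf hP.le (norms_closure fun g hg y hy =>
    ⟨h𝒦 g (hP.le hg) y hy.1, P.mul_mem (P.mul_mem hg hy.2) (P.inv_mem hg)⟩)) inf_le_left
    fun e => hW (e.ge.trans inf_le_right)
  obtain ⟨g₀, h0, h0'⟩ := SetLike.exists_of_lt (lt_of_le_of_ne hM hML)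
  obtain ⟨g, ⟨gL, gM⟩, hmax⟩ := Set.exists_max_image {g | g ∈ L ∧ g ∉ M}
    (fun g => (𝒦 ∩ (P ⊓ cj g P : Subgroup G)).ncard) (Set.toFinite _) ⟨g₀, h0, h0'⟩
  have cjK : ∀ l ∈ L, ∀ X : Subgroup G, (fun k => l * k * l⁻¹) '' (𝒦 ∩ X) = 𝒦 ∩ cj l X := fun l hl X => by
    ext k
    refine ⟨by rintro ⟨k, hk, rfl⟩; exact ⟨h𝒦 l hl k hk.1, conj_mem_cj l hk.2⟩, fun hk => ⟨l⁻¹ * k * l,
      ⟨by simpa using h𝒦 l⁻¹ (L.inv_mem hl) k hk.1, mem_cj.1 hk.2⟩, by group⟩⟩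
  have cardK : ∀ l ∈ L, ∀ X : Subgroup G, (𝒦 ∩ cj l X).ncard = (𝒦 ∩ X).ncard := fun l hl X => by
    rw [← cjK l hl]; exact Set.ncard_image_of_injective _ (MulAut.conj l).injective
  have ne : ∀ l ∈ L, l ∉ M → ¬ ∀ k ∈ 𝒦, k ∈ cj l P → k ∈ P := fun l hl hl' h => hl' (hNW ⟨hl, mem_norm_of_cj_le (by
    rw [cj_closure, cjK l hl]
    exact closure_mono fun k hk => ⟨hk.1, h k hk.1 hk.2⟩)⟩)
  obtain ⟨x, xK, xP, xQ, xN⟩ := exists_norm_elt hP.pg (inf_le_left : P ⊓ cj g P ≤ P) (fun g hg => h𝒦 g (hP.le hg))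
    fun h => ne g⁻¹ (L.inv_mem gL) (fun h => gM (inv_mem_iff.1 h)) fun k hk hk' =>
      conj_mem_cj_iff.1 (h _ (h𝒦 g gL k hk) (mem_cj_inv.1 hk')).2
  have gP := pHallJsub gL hP
  obtain ⟨y, yK, yP, yQ, yN⟩ := exists_norm_elt gP.pg (inf_le_right : P ⊓ cj g P ≤ cj g P)
    (fun g hg => h𝒦 g (gP.le hg)) fun h => ne g gL gM fun k hk hk' => (h k hk hk').1
  set D := closure (𝒦 ∩ (P ⊓ cj g P : Subgroup G))
  have DQ : D ≤ P ⊓ cj g P := (closure_le _).2 Set.inter_subset_right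
  have big : ∀ {u : G} {X : Subgroup G}, u ∈ 𝒦 → u ∉ P ⊓ cj g P → D ≤ X → u ∈ X →
      (𝒦 ∩ (P ⊓ cj g P : Subgroup G)).ncard < (𝒦 ∩ X).ncard := fun {u X} h1 h2 h3 h4 =>
    Set.ncard_lt_ncard ⟨fun k hk => ⟨hk.1, h3 (subset_closure hk)⟩, fun h => h2 (h ⟨h1, h4⟩).2⟩
  have hL0 : closure ({x, y} : Set G) ≤ L ⊓ N[D] :=
    (closure_le _).2 (by rintro _ (rfl | rfl); exacts [⟨hP.le xP, xN⟩, ⟨gP.le yP, yN⟩])
  refine ⟨x, xK, xP, y, yK, gP.le yP, fun yM => ?_, fun R₀ h1 h2 h3 n hn => ?_⟩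
  · obtain ⟨m, hm, h1⟩ := Sylow_subJ (pHall_subl hPM hM hP) (Q := D ⊔ zpowers y)
      (sup_le (DQ.trans (inf_le_left.trans hPM)) (zpowers_le.2 yM))
      (gP.pg.sub (sup_le (DQ.trans inf_le_right) (zpowers_le.2 yP)))
    have h2 := hmax (m⁻¹ * g) ⟨L.mul_mem (L.inv_mem (hM hm)) gL, fun h => gM (by simpa using M.mul_mem hm h)⟩
    rw [← cardK m (hM hm), cj_inf, ← cj_mul, mul_inv_cancel_left] at h2
    exact (big yK yQ (le_inf (le_sup_left.trans h1) (DQ.trans inf_le_right))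
      ⟨h1 (mem_sup_right (mem_zpowers y)), yP⟩).not_ge h2
  · have pR : IsPGroup p (D ⊔ R₀ : Subgroup G) := PiNat.pg (pgroupY (Or.inr (h1.trans (hL0.trans inf_le_right)))
      (hP.pg.sub (DQ.trans inf_le_left)).pi h2.pi)
    have key : ∀ l ∈ L, D ⊔ R₀ ≤ cj l P → l ∈ M := fun l hl h => by_contra fun hl' =>
      (big xK xQ (le_inf (DQ.trans inf_le_left) (le_sup_left.trans h)) ⟨xP, h (mem_sup_right h3)⟩).not_ge
        (hmax l ⟨hl, hl'⟩)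
    obtain ⟨l, hl, h4⟩ := Sylow_subJ hP (sup_le (DQ.trans (inf_le_left.trans hP.le))
      (h1.trans (hL0.trans inf_le_left))) pR
    have h5 : n ∈ N[D ⊔ R₀] := normsY (zpowers_le.2 (hL0 hn.1).2) (zpowers_le.2 hn.2) (mem_zpowers n)
    have h6 := key (n * l) (L.mul_mem (hL0 hn.1).1 hl) (by rw [cj_mul, ← cj_of_norm h5]; exact cj_mono n h4)
    simpa using M.mul_mem h6 (M.inv_mem (key l hl h4))

theorem suff_loc (hp : p ≠ 2) (hP : SylowIn p P L) (hM : M ≤ L) (hML : M ≠ L) (hPM : P ≤ M)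
    (hu : ∀ K, P ≤ K → K ≤ L → K ≠ L → K ≤ M) (hV : Abelem p V) (hz : z ∈ C[P]) (eV : V = Gold.ncl L (zpowers z))
    (hzL : ¬ L ≤ C1[z]) {u : G} (uP : u ∈ P) (qu : ⁅⁅V, zpowers u⁆, zpowers u⁆ = ⊥) (uV : u ∉ C[V]) (a : (ZMod p)ˣ) :
    ∃ x ∈ P, ∃ d ∈ M, ∃ R : Subgroup (G × SL(3, ZMod p)), Rel V R ∧ (x, tU 1) ∈ Lam R ∧ (d, dgm a) ∈ Lam R ∧
      (z, qdM ![1, 0] 1) ∈ R := by
  have nV : L ≤ N[V] := eV ▸ Gold.norm_ncl _ _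
  have zP : P ≤ C1[z] := le_cent1_iff.2 hz
  have qK : ∀ l ∈ L, ⁅⁅V, zpowers (l * u * l⁻¹)⁆, zpowers (l * u * l⁻¹)⁆ = ⊥ := fun l hl => by
    rw [← cj_zpowers, ← cj_of_norm (nV hl), ← cj_comm, ← cj_comm, qu, cj_bot]
  obtain ⟨_, ⟨l, hl, rfl⟩, xP, _, ⟨l', hl', rfl⟩, yL, yM, h⟩ := exists_pair hP hM hML hPM hu
    (𝒦 := {k | ∃ l ∈ L, l * u * l⁻¹ = k})
    (by rintro g hg _ ⟨l, hl, rfl⟩; exact ⟨g * l, L.mul_mem hg hl, by group⟩) (fun h => uV (by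
      have h1 : closure ({k | ∃ l ∈ L, l * u * l⁻¹ = k} ∩ P) ≤ C[V] := centsC.1 (eV ▸ Gold.ncl_le_of_norm
        (zpowers_le.2 (centS ((closure_le _).2 Set.inter_subset_right) hz)) (norms_cent h))
      exact h1 (subset_closure ⟨⟨1, L.one_mem, by group⟩, uP⟩)))
  have hL0 : closure ({l * u * l⁻¹, l' * u * l'⁻¹} : Set G) ≤ L :=
    (closure_le _).2 (by rintro _ (rfl | rfl); exacts [hP.le xP, yL])
  obtain ⟨d, hd, R₀, h1, h2, h3, h4, h5⟩ := exists_borel_pair hp hV (nV (hP.le xP)) (nV yL) (qK l hl) (qK l' hl')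
    (eV ▸ Gold.le_ncl _ _ (mem_zpowers z)) (mem_cent1_comm.1 (zP xP)) (mem_p_elt hP.pi xP) a fun hn => yM (by
      refine le_of_Sylow_le (A := closure {l * u * l⁻¹, l' * u * l'⁻¹}) (fun q hq _ => ?_) (subset_closure (by simp))
      haveI := Fact.mk hq
      by_cases e : q = p
      · subst e
        obtain ⟨T, hT, h1⟩ := Sylow_superset (M := closure {l * u * l⁻¹, l' * u * l'⁻¹})
          (zpowers_le.2 (subset_closure (by simp))) (hP.pg.sub (zpowers_le.2 xP))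
        exact ⟨T, hT, (le_inf hT.le (normG T)).trans (h T hT.le hT.pg (h1 (mem_zpowers _)))⟩
      obtain ⟨T, hT⟩ := Sylow_exists q (closure ({l * u * l⁻¹, l' * u * l'⁻¹} : Set G))
      refine ⟨T, hT, fun g hg => ?_⟩
      obtain ⟨k, hk⟩ := hn g (hT.le hg)
      have h1 : g ^ p ^ k ∈ M := hu (L ⊓ C1[z]) (le_inf hP.le zP) inf_le_left (fun e => hzL (e.ge.trans inf_le_right))
        ⟨L.pow_mem (hL0 (hT.le hg)) _, hk⟩
      obtain ⟨m, hm⟩ := exists_pow_eq_self_of_coprime (x := g) (n := p ^ k)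
        (((p'nat_coprime Fact.out).1 (mem_p_elt (p'group_of_ne hT.pg e) hg)).symm.pow_left k)
      exact hm ▸ M.pow_mem h1 m)
  exact ⟨_, xP, d, h R₀ h1 h2 h3 ⟨hd, h4⟩, h5⟩

end Cfsg.Agent.LieM
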