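import Cfsg.Agent.LieM.SuffC
import Cfsg.Agent.PLocal.Npc

/-! Control of fusion by a subgroup (`Gd`, `Good`), and the core of Glauberman's theorem on failure of control of
strong fusion by `ZJ` (`suff_core`). -/

set_option autoImplicit false

namespace Cfsg.Agent.LieM
open Subgroup Cfsg.Agent.BG
open scoped commutatorElement

variable {G : Type*} [Group G] {p : ℕ} {H K K' R R' X Y S T L P C Z : Subgroup G} {g k : G}

/-- Conjugation by `g` on `X` is induced by an element of `H`. -/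
def Gd (H X : Subgroup G) (g : G) : Prop := ∃ h ∈ H, ∀ x ∈ X, g * x * g⁻¹ = h * x * h⁻¹

/-- `H` controls strong `K`-fusion in `R`. -/
def Good (H K R : Subgroup G) : Prop := ∀ k ∈ K, ∀ X ≤ R, cj k X ≤ R → Gd H X k

theorem Gd.mono (h : Gd H X g) (hY : Y ≤ X) : Gd H Y g := h.imp fun _ h => ⟨h.1, fun x hx => h.2 x (hY hx)⟩

theorem Gd.of_mem (h : g ∈ H) : Gd H X g := ⟨g, h, fun _ _ => rfl⟩

theorem Gd.of_cent (h : g ∈ C[X]) : Gd H X g := ⟨1, H.one_mem, fun x hx => by rw [conj_eq_of_cent h hx]; group⟩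

theorem Gd.mul (h : Gd H (cj k X) g) (h' : Gd H X k) : Gd H X (g * k) := by
  obtain ⟨a, ha, h⟩ := h
  obtain ⟨b, hb, h'⟩ := h'
  refine ⟨a * b, H.mul_mem ha hb, fun x hx => ?_⟩
  have := h _ (conj_mem_cj k hx)
  rw [show g * k * x * (g * k)⁻¹ = g * (k * x * k⁻¹) * g⁻¹ by group, this, h' x hx]; group

theorem Gd.inv (h : Gd H X g) : Gd H (cj g X) g⁻¹ := by
  obtain ⟨a, ha, h⟩ := h
  refine ⟨a⁻¹, H.inv_mem ha, fun y hy => ?_⟩
  obtain ⟨x, hx, rfl⟩ := mem_cj'.1 hy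
  rw [show g⁻¹ * (g * x * g⁻¹) * g⁻¹⁻¹ = x by group, h x hx]; group

theorem Gd.cancel (h : Gd H (cj k X) g) (h' : Gd H X (g * k)) : Gd H X k := by
  have := h.inv
  rw [← cj_mul] at this
  simpa using this.mul h'

theorem Good.mono (h : Good H K R) (hK : K' ≤ K) (hR : R' ≤ R) : Good H K' R' :=
  fun k hk X hX hc => h k (hK hk) X (hX.trans hR) (hc.trans hR)

theorem Good.of_le (h : K ≤ H) : Good H K R := fun _ hk _ _ _ => .of_mem (h hk)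

theorem Good.of_cj (hg : Gd H R g) (hT : cj g R ≤ T) (h : Good H (cj g K) T) : Good H K R := fun k hk X hX hc => by
  refine (hg.mono hc).cancel ?_
  rw [show g * k = g * k * g⁻¹ * g by group]
  refine (h _ (conj_mem_cj g hk) _ ((cj_mono g hX).trans hT) ?_).mul (hg.mono hX)
  rw [← cj_mul, inv_mul_cancel_right, cj_mul]
  exact (cj_mono g hc).trans hT

theorem Good.map {G' : Type*} [Group G'] {f : G →* G'} (hf : f.ker ≤ R) (h : Good H K R) :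
    Good (H.map f) (K.map f) (R.map f) := by
  rintro _ ⟨k, hk, rfl⟩ X hX hc
  have e : ∀ x, f x ∈ R.map f → x ∈ R := fun x hx => (comap_map_eq_self hf).le hx
  obtain ⟨a, ha, h1⟩ := h k hk (X.comap f) (fun x hx => e x (hX hx)) fun y hy => by
    obtain ⟨x, hx, rfl⟩ := mem_cj'.1 hy
    exact e _ (hc (by simpa using conj_mem_cj (f k) hx))
  refine ⟨f a, mem_map_of_mem f ha, fun y hy => ?_⟩
  obtain ⟨x, -, rfl⟩ := hX hy
  simpa using congrArg f (h1 x hy)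

variable [Finite G] [Fact p.Prime]

theorem Good.ns (hC : C ⊴ L) (hP : SylowIn p P L) (h1 : Good H (L ⊓ N[C ⊓ P]) P) (h2 : Good H (C ⊔ P) P) :
    Good H L P := fun l hl Y hY hc => by
  have n1 : C ⊓ P ≤ C ⊔ P := inf_le_left.trans le_sup_left
  have e : cj l (C ⊓ P) ≤ C := cj_le_of_norm (hC.norm hl) inf_le_left
  obtain ⟨c, hc1, hc2⟩ := Sylow_Jsub (pHall_subl le_sup_right (sup_le hC.le hP.le) hP) (Q := cj l (Y ⊔ C ⊓ P))
    (by rw [cj_sup]; exact sup_le (hc.trans le_sup_right) (e.trans le_sup_left))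
    ((hP.pg.sub (sup_le hY inf_le_right)).cj l)
  have cL := sup_le hC.le hP.le hc1
  rw [← cj_mul] at hc2
  refine (h2 c hc1 _ hc (by rw [← cj_mul]; exact (cj_mono _ le_sup_left).trans hc2)).cancel
    (h1 _ ⟨L.mul_mem cL hl, mem_norm_of_cj_le (le_inf ?_ ((cj_mono _ le_sup_right).trans hc2))⟩ _ hY
      ((cj_mono _ le_sup_left).trans hc2))
  exact cj_le_of_norm (hC.norm (L.mul_mem cL hl)) inf_le_left

theorem exists_bad (hS : SylowIn p S ⊤) (hH : S ≤ H) (hN : N[S] ≤ H) (h : ¬ Good H ⊤ S) :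
    ∃ E ≤ S, (∀ k X, X ≤ S → cj k X ≤ S → #E < #X → Gd H X k) ∧ #E < #(S ⊓ N[E] : Subgroup G) ∧ Z[S] ≤ E ∧
      SylowIn p (S ⊓ N[E]) N[E] ∧ ¬ Good H N[E] (S ⊓ N[E]) := by
  simp only [Good, not_forall] at h
  obtain ⟨k₀, -, X₀, h1, h2, h3⟩ := h
  obtain ⟨X, ⟨hX, k, hk, bad⟩, hmax⟩ := arg_max_exists (P := fun X => X ≤ S ∧ ∃ k, cj k X ≤ S ∧ ¬ Gd H X k)
    (fun X => #X) ⟨h1, k₀, h2, h3⟩
  have big : ∀ k Y, Y ≤ S → cj k Y ≤ S → #X < #Y → Gd H Y k := fun k Y h1 h2 h3 =>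
    by_contra fun h => h3.not_ge (hmax Y ⟨h1, k, h2, h⟩)
  have lt : ∀ Y ≤ S, #Y = #X → Y < S ⊓ N[Y] := fun Y hY e => nilpotent_proper_norm (pgroup_nil hS.pg)
    (lt_of_le_of_ne hY fun e' => by
      obtain rfl : X = S := eq_of_card_le hX (by rw [← e, e'])
      exact bad (.of_mem (hN (mem_norm_of_cj_le hk))))
  obtain ⟨T, hT, h4⟩ := Sylow_superset (inf_le_right : S ⊓ N[X] ≤ N[X]) (hS.pg.sub inf_le_left)
  obtain ⟨u, -, hu⟩ := Sylow_Jsub hS le_top hT.pg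
  obtain ⟨n, hn, h5⟩ := Sylow_Jsub hT (Q := cj k⁻¹ (S ⊓ N[cj k X]))
    (by rw [cj_le_iff, inv_inv, ← N_cj]; exact inf_le_right) ((hS.pg.sub inf_le_left).cj _)
  have l1 := lt X hX rfl
  have l2 := lt _ hk (card_cj _ _)
  have hE : cj u X ≤ S := (cj_mono u (l1.le.trans h4)).trans hu
  have g1 : Gd H X u := (big u _ inf_le_left ((cj_mono u h4).trans hu) (proper_card l1)).mono l1.le
  have g2 : Gd H (cj k X) (u * n * k⁻¹) := (big _ _ inf_le_left (by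
    rw [cj_mul, cj_mul]; exact (cj_mono u h5).trans hu) (card_cj k X ▸ proper_card l2)).mono l2.le
  have un : u * n * u⁻¹ ∈ N[cj u X] := N_cj u X ▸ conj_mem_cj u hn
  have syl : SylowIn p (S ⊓ N[cj u X]) N[cj u X] := by
    have := pHallJ u hT
    rw [← N_cj] at this
    rwa [Hall_max this (le_inf hu this.le) inf_le_right (hS.pg.sub inf_le_left).pi]
  have bad' : ¬ Gd H (cj u X) (u * n * u⁻¹) := fun h => bad (g2.cancel (by simpa using h.mul g1))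
  have l3 := lt _ hE (card_cj _ _)
  refine ⟨cj u X, hE, by simpa only [card_cj] using big, proper_card l3, fun z hz => by_contra fun hz' => bad' ?_, syl,
    fun h => bad' (h _ un _ l3.le ((cj_of_norm un).le.trans l3.le))⟩
  have hQ := Sylow_setI_normal (cent_normal (cj u X)) syl
  obtain ⟨c, hc, m, hm, e⟩ := (mem_sup_norml (inf_le_left.trans (cent_norm _))).1
    ((Frattini_arg (cent_normal _) hQ).ge un)
  have hle : cj u X ⊔ C[cj u X] ⊓ (S ⊓ N[cj u X]) ≤ S := sup_le hE (inf_le_right.trans inf_le_left)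
  have zc := centS hE hz.2
  have mn : m ∈ N[cj u X ⊔ C[cj u X] ⊓ (S ⊓ N[cj u X])] :=
    normsY (zpowers_le.2 hm.1) (zpowers_le.2 hm.2) (mem_zpowers m)
  rw [e]
  refine Gd.mul (.of_cent (by rwa [cj_of_norm hm.1])) ((big m _ hle ((cj_of_norm mn).le.trans hle) ?_).mono le_sup_left)
  rw [← card_cj u X]
  exact proper_card (lt_of_le_of_ne le_sup_left fun e => hz' (e.ge (mem_sup_right ⟨zc, hz.1, cent_sub _ zc⟩)))

theorem suff_core (hp : p ≠ 2) (hS : SylowIn p S ⊤) (hZ : Z ≤ S) (hH : S ≤ H) (hHZ : H ≤ N[Z]) (h0 : Z ≠ ⊥)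
    (hN : N[S] ≤ H) (hB : ∀ U ≤ Z, U ≠ ⊥ → Good H N[U] (S ⊓ N[U])) (h1 : ∀ K, S ≤ K → K ≠ ⊤ → Good H K S)
    (h2 : ∀ z ∈ Z ⊓ C[S], z ≠ 1 → ∀ V, V = Gold.ncl ⊤ (zpowers z) → V ≤ S → Abelem p V →
      ∃ u ∈ S, u ∉ C[V] ∧ ⁅⁅V, zpowers u⁆, zpowers u⁆ = ⊥)
    (h : ¬ Good H ⊤ S) {a : (ZMod p)ˣ} (ha : ∀ b, b ∈ Submonoid.powers a) :
    PLocal.Involves H (fOver (ZMod p)) ∧ Wt H Z (a : ZMod p).val := by
  obtain ⟨E, hE, big, h3, h4, h5, h6⟩ := exists_bad hS hH hN h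
  let ad : Subgroup G → Subgroup G → Prop := fun K R =>
    R ≤ S ∧ SylowIn p R K ∧ ¬ Good H K R ∧ #E < #R ∧ ∃ U, U ⊴ K ∧ U ≤ R ∧ U ⊓ Z ≠ ⊥
  have nZ : Z ⊴ S := ⟨hZ, hH.trans hHZ⟩
  obtain ⟨P, ⟨L₀, hL₀⟩, pmax⟩ := arg_max_exists (P := fun R => ∃ K, ad K R) (fun R => #R)
    ⟨N[E], inf_le_left, h5, h6, h3, E, normalG E, le_inf hE (normG E), fun e =>
      meet_center_nil (pgroup_nil hS.pg) nZ h0 (eq_bot_iff.2 (e ▸ le_inf (inf_le_right.trans h4) inf_le_left))⟩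
  obtain ⟨L, -, ⟨PS, hP, bad, eP, U, nU, UP, UZ⟩, lmin⟩ := mingroup_exists (P := fun K => ad K P) hL₀
  have ga : P ≠ S → ∀ W ≤ P, S ⊓ N[P] ≤ N[W] → W ⊓ Z ≠ ⊥ → Good H N[W] P := fun hne W hW hn hWZ => by
    have l1 := nilpotent_proper_norm (pgroup_nil hS.pg) (lt_of_le_of_ne PS hne)
    have l2 : P < S ⊓ N[W] := l1.trans_le (le_inf inf_le_left hn)
    obtain ⟨T, hT, h7⟩ := Sylow_superset (inf_le_right : S ⊓ N[W] ≤ N[W]) (hS.pg.sub inf_le_left)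
    obtain ⟨g, -, hg⟩ := Sylow_Jsub hS le_top hT.pg
    have g1 : Gd H P g := big g P PS ((cj_mono g (l2.le.trans h7)).trans hg) eP
    have l3 : #P < #(cj g T) := (card_cj g T).symm ▸ proper_card (l2.trans_le h7)
    refine .of_cj g1 (cj_mono g (l2.le.trans h7)) (by_contra fun hb => l3.not_ge (pmax _ ⟨_, hg, pHallJ g hT, hb,
      eP.trans l3, cj g W, (normalG W).cj g, cj_mono g (hW.trans (l2.le.trans h7)), fun e => hWZ ?_⟩))
    obtain ⟨b, hb, h8⟩ := g1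
    refine eq_bot_iff.2 fun w hw => ?_
    have : g * w * g⁻¹ ∈ cj g W ⊓ Z := ⟨conj_mem_cj g hw.1, h8 w (hW hw.1) ▸ conj_mem_of_norm (hHZ hb) hw.2⟩
    rwa [e, mem_bot, conj_eq_one_iff] at this
  have gb : ∀ K, P ≤ K → K ≤ L → K ≠ L → Good H K P := fun K h7 h8 h9 => by_contra fun hb =>
    h9 (lmin K ⟨PS, pHall_subl h7 h8 hP, hb, eP, U, nU.subl (UP.trans h7) h8, UP, UZ⟩ h8)
  have gc : ∀ W ≤ Z, W ≠ ⊥ → ∀ K, P ≤ K → K ≤ N[W] → Good H K P := fun W h7 h8 K h9 h10 =>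
    (hB W h7 h8).mono h10 (le_inf PS (h9.trans h10))
  have nUZ : U ⊓ Z ⊴ P := ⟨inf_le_left.trans UP, normsI (hP.le.trans nU.norm) (PS.trans nZ.norm)⟩
  obtain ⟨z, ⟨⟨zU, zZ⟩, zP, zC⟩, oz⟩ := Cauchy Fact.out (pgroup_pdiv (hP.pg.sub (inf_le_left.trans nUZ.le))
    (meet_center_nil (pgroup_nil hP.pg) nUZ UZ))
  have z1 : z ≠ 1 := fun e => (Fact.out : p.Prime).one_lt.ne (by rw [← oz, e, orderOf_one])
  have zb : zpowers z ≠ ⊥ := by simpa using z1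
  obtain ⟨V, eV⟩ : ∃ V, V = Gold.ncl L (zpowers z) := ⟨_, rfl⟩
  have VU : V ≤ omegaOne p Z[U] := eV ▸ Gold.ncl_le_of_norm
    (zpowers_le.2 (mem_Ohm1 ⟨zU, centS UP zC⟩ (oz ▸ pow_orderOf_eq_one z))) (norms_Ohm p (norms_center nU.norm))
  have hV : Abelem p V := abelemS VU (Ohm1_center_abelem p U)
  have VP : V ≤ P := VU.trans ((Ohm_sub p _).trans ((center_sub U).trans UP))
  have nV : L ≤ N[V] := eV ▸ Gold.norm_ncl _ _
  have zV : z ∈ V := eV ▸ Gold.le_ncl _ _ (mem_zpowers z)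
  have gz : ∀ K, P ≤ K → K ≤ C1[z] → Good H K P := fun K h7 h8 =>
    gc _ (zpowers_le.2 zZ) zb K h7 (h8.trans (cent1_le_norm_zpowers z))
  have quad : ∃ u ∈ P, u ∉ C[V] ∧ ⁅⁅V, zpowers u⁆, zpowers u⁆ = ⊥ := by
    by_cases e : P = S
    · subst e
      obtain rfl : L = ⊤ := by_contra fun hL => bad (h1 L hP.le hL)
      exact h2 z ⟨zZ, zC⟩ z1 V eV VP hV
    by_cases hJ : thompsonSubgroupAOf P ≤ C[V]
    · refine absurd (Good.ns (subcent_normal nV) hP ((ga e _ (PLocal.JA_le P)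
        (inf_le_right.trans (PLocal.normalizer_le_normalizer_JA P)) fun e => z1 (mem_bot.1 (e.le
          ⟨PLocal.ZJA_le_JA P (PLocal.center_le_ZJA P ⟨zP, zC⟩), zZ⟩))).mono (inf_le_right.trans ?_) le_rfl)
        (gz _ le_sup_right (sup_le (inf_le_right.trans (cent_le_cent1 zV)) (le_cent1_iff.2 zC)))) bad
      rw [← PLocal.JA_eq_of_le (inf_le_right : L ⊓ C[V] ⊓ P ≤ P)
        (le_inf (le_inf ((PLocal.JA_le P).trans hP.le) hJ) (PLocal.JA_le P))]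
      exact PLocal.normalizer_le_normalizer_JA _
    · obtain ⟨A, hA, h7, h8⟩ := PLocal.exists_quad_JA hP.pg ⟨VP, hP.le.trans nV⟩ hV.1 hJ
      obtain ⟨u, hu, hu'⟩ := SetLike.not_le_iff_exists.1 h7
      exact ⟨u, ((PLocal.le_JA hA).trans (PLocal.JA_le P)) hu, hu',
        eq_bot_iff.2 (h8 ▸ commgSS (commgS _ (zpowers_le.2 hu)) (zpowers_le.2 hu))⟩
  obtain ⟨u, uP, uV, qu⟩ := quad
  have hM : L ⊓ N[Z ⊓ V] ≠ L := fun e => bad (gc _ inf_le_left (fun e => z1 (mem_bot.1 (e.le ⟨zZ, zV⟩))) L hP.le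
    (e.ge.trans inf_le_right))
  have PM : P ≤ L ⊓ N[Z ⊓ V] := le_inf hP.le (normsI (PS.trans nZ.norm) (hP.le.trans nV))
  obtain ⟨x, xP, d, dM, R, hR, r1, r2, r3⟩ := suff_loc hp hP inf_le_left hM PM (fun K h7 h8 h9 => le_inf h8
    (le_norm_iff.2 fun k hk w hw => by
      obtain ⟨b, hb, e⟩ := gb K h7 h8 h9 k hk V VP ((cj_of_norm (nV (h8 hk))).le.trans VP)
      exact ⟨e w hw.2 ▸ conj_mem_of_norm (hHZ hb) hw.1, conj_mem_of_norm (nV (h8 hk)) hw.2⟩))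
    hV zC eV (fun h => bad (gz L hP.le h)) uP qu uV a
  obtain ⟨b, hb, e⟩ := gb _ PM inf_le_left hM d dM V VP ((cj_of_norm (nV dM.1)).le.trans VP)
  have r4 := hR.congr r2 e
  exact ⟨involves_fOver hp hV hR ha r1 r4 (VP.trans (PS.trans hH)) ⟨hH (PS xP), nV (hP.le xP)⟩
    ⟨hb, mem_norm_of_cj_le fun y hy => by
      obtain ⟨w, hw, rfl⟩ := mem_cj'.1 hy
      exact e w hw ▸ conj_mem_of_norm (nV dM.1) hw⟩, wt_of_rel hR r4 r3 zZ hb (hHZ hb)⟩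

end Cfsg.Agent.LieM
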