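import Cfsg.Agent.LieM.Suff
import Cfsg.Agent.S2758

/-! If no nonidentity element of a Sylow `p`-subgroup `T` is inverted in `N(ZJ(T))` then `D_{2p}` is not involved. -/

set_option autoImplicit false

namespace Cfsg.Agent.LieM
open Subgroup Cfsg.Agent.BG

variable {G : Type*} [Group G] [Finite G] {p : ℕ} [Fact p.Prime]

theorem not_dihedral_of_ZJ (hp : p ≠ 2) (T : Sylow p G)
    (h : ∀ x ∈ (T : Subgroup G), x ≠ 1 → ∀ g ∈ N[centerThompsonAOf (T : Subgroup G)], g * x * g⁻¹ ≠ x⁻¹) :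
    ¬ Involves (DihedralGroup p) G := fun hd => by
  have p1 := (Fact.out : p.Prime).one_lt
  obtain ⟨t, y, -, ⟨k, hk⟩, y1, e⟩ := (S2758.result hp).2.1 hd
  obtain ⟨a, ha⟩ := IsCyclic.exists_monoid_generator (α := (ZMod p)ˣ)
  by_cases hg : Good N[centerThompsonAOf (T : Subgroup G)] ⊤ T
  · obtain ⟨g, -, h1⟩ := Sylow_Jsub (sylowIn_top T) (le_top (a := zpowers y))
      (pgroup_of_card ((Nat.card_zpowers y).trans hk))
    rw [cj_zpowers] at h1
    have e' : g * t * g⁻¹ * (g * y * g⁻¹) * (g * t * g⁻¹)⁻¹ = (g * y * g⁻¹)⁻¹ := by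
      rw [show g * t * g⁻¹ * (g * y * g⁻¹) * (g * t * g⁻¹)⁻¹ = g * (t * y * t⁻¹) * g⁻¹ by group, e]; group
    obtain ⟨n, hn, h2⟩ := hg (g * t * g⁻¹) (mem_top _) _ h1 (by rwa [cj_zpowers, e', zpowers_inv])
    exact h _ (h1 (mem_zpowers _)) (by simpa using y1) n hn ((h2 _ (mem_zpowers _)).symm.trans e')
  obtain ⟨-, g, hg, c, hc, oc, e⟩ := suff_main hp ha _ G rfl T (sylowIn_top T) hg
  obtain ⟨m, hm⟩ := ha (-1)
  have hm : (a : ZMod p) ^ m = -1 := congrArg Units.val hm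
  have pw : ∀ m : ℕ, g ^ m * c * (g ^ m)⁻¹ = c ^ (a : ZMod p).val ^ m := fun m => by
    induction m with
    | zero => simp
    | succ m ih =>
      rw [show g ^ (m + 1) * c * (g ^ (m + 1))⁻¹ = g ^ m * (g * c * g⁻¹) * (g ^ m)⁻¹ by group, e, ← conj_pow, ih,
        ← pow_mul, pow_succ]
  refine h c (PLocal.ZJA_le _ hc) (fun e => p1.ne (by rw [← oc, e, orderOf_one])) _ (pow_mem hg m) ?_
  rw [pw, eq_inv_iff_mul_eq_one, ← pow_succ, ← orderOf_dvd_iff_pow_eq_one, oc, ← ZMod.natCast_eq_zero_iff]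
  simp [hm]

end Cfsg.Agent.LieM
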