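import Cfsg.Agent.BG.Base6
import Cfsg.Agent.PLocal.PSolv

/-!
Weakly closed elements of a Sylow subgroup form a direct factor of its centre (helper2): `exists_trace` (the relative
trace), `direct_factor` (weak closure controlled by `N(J)`), `direct_factor_of_le` (`Z(S) ≤ O_{p',p}(G)`).
-/

namespace Cfsg.Agent.LieM

open Subgroup Cfsg.Agent.BG

theorem exists_trace {N A : Type*} [Group N] [Finite N] [CommGroup A] (φ : N →* MulAut A) (S : Subgroup N) :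
    ∃ f : A →* A, (∀ a, (∀ s ∈ S, φ s a = a) → ∀ n, φ n (f a) = f a) ∧ ∀ a, (∀ n, φ n a = a) → f a = a ^ S.index := by
  have := Fintype.ofFinite (N ⧸ S)
  refine ⟨∏ q : N ⧸ S, (φ q.out : A →* A), fun a ha n => ?_, fun a ha => ?_⟩
  · rw [MonoidHom.finsetProd_apply, map_prod, ← Equiv.prod_comp (MulAction.toPerm n) (fun q : N ⧸ S => (φ q.out : A →* A) a)]
    refine Finset.prod_congr rfl fun q _ => ?_
    obtain ⟨s, hs⟩ := QuotientGroup.mk_out_eq_mul S (n * q.out)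
    show φ n (φ q.out a) = φ (n • q).out a
    rw [show n • q = ((n * q.out : N) : N ⧸ S) by rw [← smul_eq_mul, ← MulAction.Quotient.smul_mk, QuotientGroup.out_eq'],
      hs, map_mul, map_mul, MulAut.mul_apply, MulAut.mul_apply, ha s s.2]
  · rw [MonoidHom.finsetProd_apply, Finset.prod_congr rfl fun q _ => ha q.out, Finset.prod_const, Finset.card_univ,
      index_eq_card, Nat.card_eq_fintype_card]

variable {G : Type*} [Group G] [Finite G] {p : ℕ} [hp : Fact p.Prime] {S J : Subgroup G}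

theorem direct_factor (hS : SylowIn p S ⊤) (hJ : J ≤ S) (hZ : Z[S] ≤ J) (hn : S ≤ N[J])
    (h : ∀ x ∈ S ⊓ C[N[J]], ∀ g : G, g * x * g⁻¹ ∈ S → g * x * g⁻¹ = x) :
    ∃ W K : Subgroup G, (∀ x : G, x ∈ W ↔ (x ∈ S ∧ ∀ g : G, g * x * g⁻¹ ∈ S → g * x * g⁻¹ = x)) ∧
      K ≤ Z[S] ∧ W ⊓ K = ⊥ ∧ W ⊔ K = Z[S] := by
  have hc := center_abelian J
  letI : CommGroup Z[J] := { (inferInstance : Group Z[J]) with mul_comm := hc.is_comm.comm }
  obtain ⟨f, f1, f2⟩ := exists_trace ((Z[J]).normalizerMonoidHom.comp (inclusion (norms_center (le_refl N[J]))))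
    (S.subgroupOf N[J])
  have hZ' : Z[S] ≤ Z[J] := le_inf hZ (inf_le_right.trans (centS hJ))
  have hW : S ⊓ C[N[J]] ≤ Z[S] := inf_le_inf_left _ (centS hn)
  have e1 : ∀ a : Z[J], (a : G) ∈ Z[S] → (f a : G) ∈ S ⊓ C[N[J]] := fun a ha => ⟨hJ (f a).2.1, mem_cent.2 fun n hn =>
    mul_inv_eq_iff_eq_mul.1 (congrArg Subtype.val (f1 a (fun s hs => Subtype.ext
      (mul_inv_eq_iff_eq_mul.2 (mem_cent.1 ha.2 s hs))) ⟨n, hn⟩))⟩
  have e2 : ∀ a : Z[J], (a : G) ∈ C[N[J]] → f a = a ^ S.relIndex N[J] := fun a ha =>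
    f2 a fun n => Subtype.ext (mul_inv_eq_iff_eq_mul.2 (mem_cent.1 ha n n.2))
  have hco : ∀ a : Z[J], (orderOf a).Coprime (S.relIndex N[J]) := fun a => by
    obtain ⟨k, hk⟩ := BG.IsPGroup.sub hS.pg (inf_le_left.trans hJ : Z[J] ≤ S) a
    exact ((hp.out.coprime_iff_not_dvd.2 (pHall_subl hn le_top hS).not_dvd).pow_left k).coprime_dvd_left
      (orderOf_dvd_of_pow_eq_one hk)
  refine ⟨S ⊓ C[N[J]], Z[S] ⊓ f.ker.map (Z[J]).subtype, fun x => ⟨fun hx => ⟨hx.1, h x hx⟩, fun hx => ⟨hx.1, mem_cent.2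
    fun n hn => mul_inv_eq_iff_eq_mul.1 (hx.2 n (hJ (conj_mem_of_norm hn (hZ ⟨hx.1, mem_cent.2 fun s hs =>
      mul_inv_eq_iff_eq_mul.1 (hx.2 s (mul_mem (mul_mem hs hx.1) (inv_mem hs)))⟩))))⟩⟩, inf_le_left, le_bot_iff.1 ?_,
    le_antisymm (sup_le hW inf_le_left) fun z hz => ?_⟩
  · rintro _ ⟨h1, -, a, ha, rfl⟩
    have := (e2 a h1.2).symm.trans ha
    rw [← orderOf_dvd_iff_pow_eq_one] at this
    exact congrArg Subtype.val (orderOf_eq_one_iff.1 ((hco a).eq_one_of_dvd this))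
  · obtain ⟨k, hk⟩ := exists_pow_eq_self_of_coprime (hco (f ⟨z, hZ' hz⟩)).symm
    have h1 := pow_mem (e1 ⟨z, hZ' hz⟩ hz) k
    rw [← mul_inv_cancel_left ((f ⟨z, hZ' hz⟩ : G) ^ k) z]
    refine mul_mem_sup h1 ⟨mul_mem ((Z[S]).inv_mem (hW h1)) hz, (f ⟨z, hZ' hz⟩ ^ k)⁻¹ * ⟨z, hZ' hz⟩, ?_, rfl⟩
    rw [SetLike.mem_coe, MonoidHom.mem_ker, map_mul, map_inv, e2 _ h1.2, ← pow_mul, mul_comm k, pow_mul, hk, inv_mul_cancel]

theorem direct_factor_of_le (hS : SylowIn p S ⊤) (hZ : Z[S] ≤ pPrimePCore p G) :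
    ∃ W K : Subgroup G, (∀ x : G, x ∈ W ↔ (x ∈ S ∧ ∀ g : G, g * x * g⁻¹ ∈ S → g * x * g⁻¹ = x)) ∧
      K ≤ Z[S] ∧ W ⊓ K = ⊥ ∧ W ⊔ K = Z[S] := by
  have hT := Sylow_setI_normal (normal_top (pPrimePCore p G)) hS
  refine direct_factor hS (J := pPrimePCore p G ⊓ S) inf_le_right (le_inf hZ inf_le_left)
    (normsI (le_top.trans (normal_top _).norm) (normG S)) fun x hx g hg => ?_
  have h1 : pPrimeCore p G ⊔ N[pPrimePCore p G ⊓ S] = ⊤ := by
    refine top_le_iff.1 ((Frattini_arg (normal_top _) hT).ge.trans (sup_le ?_ (inf_le_right.trans le_sup_right)))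
    exact (PLocal.pPrimeCore_sup_sylIn ⟨hT.le, hT.pg, fun Q h1 h2 h3 => Hall_max hT h3 h1 h2.pi⟩).ge.trans
      (sup_le_sup_left (normG _) _)
  obtain ⟨o, ho, n, hn, rfl⟩ := (mem_sup_norml (le_top.trans (normal_top _).norm)).1 (h1.ge (mem_top g))
  have e : o * n * x * (o * n)⁻¹ = o * x * o⁻¹ := by
    rw [mul_assoc o, mem_cent.1 hx.2 n hn]; group
  rw [e] at hg ⊢
  obtain ⟨k, hk⟩ := hS.pg.exists_card_eq
  refine mul_inv_eq_one.1 ((coprime_TI (A := S) (hk ▸ (PLocal.coprime_pPrimeCore p G).symm.pow_left k)).le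
    ⟨mul_mem hg (S.inv_mem hx.1), ?_⟩)
  rw [mul_assoc, mul_assoc, ← mul_assoc x]
  exact mul_mem ho (Normal.conj_mem inferInstance _ (inv_mem ho) x)

end Cfsg.Agent.LieM
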